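import Mathlib

/-! A model of the extraspecial `2`-group attached to a bilinear form over `ZMod 2`. -/

set_option autoImplicit false

namespace Cfsg.Agent.Lib.Helper92

open Matrix

/-- the underlying type of the model group: pairs (vector, scalar) -/
@[ext] structure Mdl {ι : Type} (B : Matrix ι ι (ZMod 2)) where
  /-- vector part -/
  v : ι → ZMod 2
  /-- scalar part -/
  a : ZMod 2

namespace Mdl

variable {ι : Type} [Fintype ι] (B : Matrix ι ι (ZMod 2))

/-- the bilinear form of a matrix -/
def bet (u w : ι → ZMod 2) : ZMod 2 := u ⬝ᵥ (B *ᵥ w)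

theorem bet_add_left (u u' w : ι → ZMod 2) : bet B (u + u') w = bet B u w + bet B u' w := by
  simp [bet, add_dotProduct]

theorem bet_add_right (u w w' : ι → ZMod 2) : bet B u (w + w') = bet B u w + bet B u w' := by
  simp [bet, mulVec_add, dotProduct_add]

@[simp] theorem bet_zero_left (w : ι → ZMod 2) : bet B 0 w = 0 := by simp [bet]

@[simp] theorem bet_zero_right (u : ι → ZMod 2) : bet B u 0 = 0 := by simp [bet]

theorem zmod2_add_self (a : ZMod 2) : a + a = 0 := by revert a; decide

theorem vec_add_self (u : ι → ZMod 2) : u + u = 0 := by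
  funext i; exact zmod2_add_self _

variable {B}

instance : Mul (Mdl B) := ⟨fun x y => ⟨x.v + y.v, x.a + y.a + bet B x.v y.v⟩⟩
instance : One (Mdl B) := ⟨⟨0, 0⟩⟩
instance : Inv (Mdl B) := ⟨fun x => ⟨x.v, x.a + bet B x.v x.v⟩⟩

@[simp] theorem mul_v (x y : Mdl B) : (x * y).v = x.v + y.v := rfl
@[simp] theorem mul_a (x y : Mdl B) : (x * y).a = x.a + y.a + bet B x.v y.v := rfl
@[simp] theorem one_v : (1 : Mdl B).v = 0 := rfl
@[simp] theorem one_a : (1 : Mdl B).a = 0 := rfl
@[simp] theorem inv_v (x : Mdl B) : (x⁻¹).v = x.v := rfl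
@[simp] theorem inv_a (x : Mdl B) : (x⁻¹).a = x.a + bet B x.v x.v := rfl

instance : Group (Mdl B) :=
  Group.ofLeftAxioms
    (fun x y w => by
      ext1
      · simp [add_assoc]
      · simp only [mul_a, mul_v, bet_add_left, bet_add_right]; ring)
    (fun x => by ext1 <;> simp)
    (fun x => by
      ext1
      · simp [vec_add_self]
      · simp only [mul_a, inv_a, inv_v, one_a]
        have h1 := zmod2_add_self x.a
        have h2 := zmod2_add_self (bet B x.v x.v)
        linear_combination h1 + h2)

/-- as a product -/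
def toProd : Mdl B ≃ (ι → ZMod 2) × ZMod 2 where
  toFun x := (x.v, x.a)
  invFun p := ⟨p.1, p.2⟩
  left_inv _ := rfl
  right_inv _ := rfl

instance : Finite (Mdl B) := Finite.of_equiv _ toProd.symm

variable (B)

/-- the central involution -/
def zc : Mdl B := ⟨0, 1⟩

/-- the quadratic form -/
def qf (u : ι → ZMod 2) : ZMod 2 := bet B u u

end Mdl

end Cfsg.Agent.Lib.Helper92
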