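import Cfsg.Agent.S0071
import Cfsg.Agent.Lib.Helper11.DihedralAut
import Cfsg.Agent.Lib.Helper11.TwoComplement
import Cfsg.Agent.Lib.Helper11.NPC
import Cfsg.Agent.Lib.Helper28.Cores
import Cfsg.Prelude.Def_CaseTheorems

set_option autoImplicit false

namespace Cfsg.Agent.Lib.Helper92.BSW

open Cfsg.Agent.Lib.Helper11

/-- An odd-order automorphism of a four-group fixing a nonidentity element is trivial. -/
theorem aut_kleinFour_fix {R : Type*} [Group R] [Finite R] (hR : IsKleinFour R) (β : MulAut R)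
    (hβ : (orderOf β).Coprime 2) (τ : R) (hτ : τ ≠ 1) (hfix : β τ = τ) : β = 1 := by
  have hsq : ∀ x : R, x * x = 1 := by
    intro x
    have := Monoid.pow_exponent_eq_one x
    rwa [hR.exponent_two, pow_two] at this
  have hoτ : orderOf τ = 2 := orderOf_eq_prime (by rw [pow_two]; exact hsq τ) hτ
  have hidx : (Subgroup.zpowers τ).index = 2 := by
    have h1 := (Subgroup.zpowers τ).card_mul_index
    rw [Nat.card_zpowers, hoτ, hR.card_four] at h1
    omega
  have hmem : ∀ y : R, y ∈ Subgroup.zpowers τ → y = 1 ∨ y = τ := by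
    intro y hy
    obtain ⟨k, rfl⟩ := hy
    rcases Int.even_or_odd' k with ⟨m, rfl | rfl⟩
    · left
      change τ ^ (2 * m) = 1
      rw [zpow_mul, zpow_two, hsq, one_zpow]
    · right
      change τ ^ (2 * m + 1) = τ
      rw [zpow_add, zpow_mul, zpow_two, hsq, one_zpow, one_mul, zpow_one]
  have hfixT : ∀ y : R, y ∈ Subgroup.zpowers τ → β y = y := by
    intro y hy
    rcases hmem y hy with rfl | rfl
    · exact map_one β
    · exact hfix
  have hββ : β * β = 1 := by
    ext x
    rw [MulAut.mul_apply, MulAut.one_apply]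
    by_cases hx : x ∈ Subgroup.zpowers τ
    · rw [hfixT x hx, hfixT x hx]
    · have hβx : β x ∉ Subgroup.zpowers τ := by
        intro h
        have h1 := hfixT _ h
        have h2 : β x = x := β.injective h1
        exact hx (h2 ▸ h)
      have h3 : x * β x ∈ Subgroup.zpowers τ :=
        (Subgroup.mul_mem_iff_of_index_two hidx).2 ⟨fun h => absurd h hx, fun h => absurd h hβx⟩
      have h4 := hfixT _ h3
      rw [map_mul] at h4
      -- β x * β (β x) = x * β x
      have h5 : β x * x = x * β x := by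
        have e1 := hsq (x * β x)
        have e2 := hsq x
        have e3 := hsq (β x)
        calc β x * x = (x * x) * (β x * x) * (β x * β x) := by rw [e2, e3, one_mul, mul_one]
          _ = x * ((x * β x) * (x * β x)) * β x := by group
          _ = x * β x := by rw [e1, mul_one]
      rw [← h5] at h4
      exact mul_left_cancel h4
  have h1 : orderOf β ∣ 2 := orderOf_dvd_of_pow_eq_one (by rw [pow_two]; exact hββ)
  have h2 : orderOf β = 1 := Nat.eq_one_of_dvd_coprimes hβ dvd_rfl h1
  exact orderOf_eq_one_iff.1 h2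

theorem cent_two_nilpotent {G : Type*} [Group G] [Finite G] (S : Sylow 2 G) (n : ℕ)
    (hn : 2 ≤ n) (hS : Nonempty ((S : Subgroup G) ≃* DihedralGroup n)) (t : G) (ht : orderOf t = 2)
    (htS : t ∈ (S : Subgroup G))
    (htZ : ∀ s ∈ (S : Subgroup G), s * t = t * s) (O : Subgroup G)
    (hO : O = (Cfsg.oddCore (Subgroup.centralizer ({t} : Set G))).map
      (Subgroup.centralizer ({t} : Set G)).subtype) :
    Odd (Nat.card O) ∧ O ≤ Subgroup.centralizer ({t} : Set G) ∧
    (∀ g ∈ Subgroup.centralizer ({t} : Set G), ∀ y ∈ O, g * y * g⁻¹ ∈ O) ∧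
    (∀ x ∈ Subgroup.centralizer ({t} : Set G), ∃ y ∈ O, ∃ s ∈ (S : Subgroup G), x = y * s) := by
  have : Fact (Nat.Prime 2) := ⟨Nat.prime_two⟩
  obtain ⟨eS⟩ := hS
  set C := Subgroup.centralizer ({t} : Set G) with hC
  have hSC : (S : Subgroup G) ≤ C := by
    intro s hs
    rw [hC, Subgroup.mem_centralizer_singleton_iff]
    exact htZ s hs
  have htC : t ∈ C := hSC htS
  let P : Sylow 2 ↥C := S.subtype hSC
  have hP : (P : Subgroup ↥C) = (S : Subgroup G).subgroupOf C := Sylow.coe_subtype _ _
  let τ : ↥C := ⟨t, htC⟩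
  have hτ1 : τ ≠ 1 := by
    intro h
    have : t = 1 := congrArg Subtype.val h
    rw [this, orderOf_one] at ht
    omega
  have hτc : ∀ g : ↥C, g * τ = τ * g := by
    intro g
    apply Subtype.ext
    have h1 : (g : G) ∈ Subgroup.centralizer ({t} : Set G) := g.2
    rw [Subgroup.mem_centralizer_singleton_iff] at h1
    exact h1
  have hτP : τ ∈ (P : Subgroup ↥C) := by
    rw [hP, Subgroup.mem_subgroupOf]; exact htS
  have key : ∃ N : Subgroup ↥C, N.Normal ∧ N.IsComplement' (P : Subgroup ↥C) := by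
    rw [Cfsg.Agent.S0071.result P]
    intro Q₀ hQ₀P g hgN₀ hg2
    -- enlarge `Q₀` by `τ`
    set Q := Q₀ ⊔ Subgroup.zpowers τ with hQ
    have hQP : Q ≤ (P : Subgroup ↥C) := sup_le hQ₀P (by rw [Subgroup.zpowers_le]; exact hτP)
    have hgN : g ∈ Subgroup.normalizer (Q : Set ↥C) := by
      have h1 : Subgroup.normalizer (Q₀ : Set ↥C) ⊓
          Subgroup.normalizer ((Subgroup.zpowers τ : Subgroup ↥C) : Set ↥C) ≤
          Subgroup.normalizer (Q : Set ↥C) := by
        intro x hx
        apply mem_normalizer_of_conj_mem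
        intro u hu
        have hle : Q ≤ Q.comap (MulAut.conj x).toMonoidHom := by
          rw [hQ]
          refine sup_le ?_ ?_
          · intro a ha
            rw [Subgroup.mem_comap]
            exact Subgroup.mem_sup_left ((Subgroup.mem_normalizer_iff.1 hx.1 a).1 ha)
          · intro a ha
            rw [Subgroup.mem_comap]
            exact Subgroup.mem_sup_right ((Subgroup.mem_normalizer_iff.1 hx.2 a).1 ha)
        exact hle hu
      apply h1
      refine ⟨hgN₀, ?_⟩
      apply Subgroup.centralizer_le_normalizer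
      rw [Subgroup.mem_centralizer_iff]
      intro a ha
      obtain ⟨k, rfl⟩ := ha
      exact ((Commute.zpow_right (show Commute g τ from hτc g) k).eq).symm
    have hQ2 : IsPGroup 2 Q := P.isPGroup'.to_le hQP
    have hQS : ∀ q : Q, ((q : ↥C) : G) ∈ (S : Subgroup G) := by
      intro q
      have := hQP q.2
      rwa [hP, Subgroup.mem_subgroupOf] at this
    let f₀ : Q →* (S : Subgroup G) :=
      { toFun := fun q => ⟨((q : ↥C) : G), hQS q⟩
        map_one' := rfl
        map_mul' := fun _ _ => rfl }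
    have hf₀ : Function.Injective f₀ := by
      intro a b hab
      have : ((a : ↥C) : G) = ((b : ↥C) : G) :=
        congrArg (fun x : (S : Subgroup G) => (x : G)) hab
      exact Subtype.ext (Subtype.ext this)
    let f : Q →* DihedralGroup n := eS.toMonoidHom.comp f₀
    have hf : Function.Injective f := eS.injective.comp hf₀
    obtain ⟨A, hAc, hidx, hinv⟩ := dihedral_structure f hf
    have hord : (orderOf (Q.normalizerMonoidHom ⟨g, hgN⟩)).Coprime 2 := by
      have h8 : orderOf (Q.normalizerMonoidHom ⟨g, hgN⟩) ∣ orderOf g := by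
        have := orderOf_map_dvd Q.normalizerMonoidHom (⟨g, hgN⟩ : Subgroup.normalizer (Q : Set ↥C))
        rwa [Subgroup.orderOf_mk] at this
      exact Nat.Coprime.coprime_dvd_left h8 hg2
    have hone : Q.normalizerMonoidHom ⟨g, hgN⟩ = 1 := by
      rcases aut_eq_one_or_kleinFour hQ2 A hidx (fun x hx => (hinv x hx).1) _ hord with h1 | h1
      · exact h1
      · have hτQ : τ ∈ Q := Subgroup.mem_sup_right (Subgroup.mem_zpowers τ)
        refine aut_kleinFour_fix h1 _ hord ⟨τ, hτQ⟩ ?_ ?_
        · intro h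
          exact hτ1 (congrArg Subtype.val h)
        · apply Subtype.ext
          change g * τ * g⁻¹ = τ
          rw [hτc g, mul_inv_cancel_right]
    have hcent := (normalizerMonoidHom_eq_one_iff Q g hgN).1 hone
    exact Subgroup.centralizer_le (show (Q₀ : Set ↥C) ⊆ Q from le_sup_left (a := Q₀)) hcent
  obtain ⟨N, hN, hc⟩ := key
  have hNodd : (Nat.card N).Coprime 2 := by
    have h1 : Nat.card N = (P : Subgroup ↥C).index := by
      have h2 := hc.card_mul_card
      have h3 := (P : Subgroup ↥C).card_mul_index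
      have hpos : 0 < Nat.card (P : Subgroup ↥C) := Nat.card_pos
      have : Nat.card N * Nat.card (P : Subgroup ↥C) =
          (P : Subgroup ↥C).index * Nat.card (P : Subgroup ↥C) := by
        rw [h2, ← h3, mul_comm]
      exact Nat.eq_of_mul_eq_mul_right hpos this
    rw [h1]
    exact (Nat.Prime.coprime_iff_not_dvd Nat.prime_two).2 P.not_dvd_index |>.symm
  have hNle : N ≤ Cfsg.oddCore ↥C := Cfsg.Agent.Lib.Helper28.le_pPrimeCore hN hNodd
  have hchar := Cfsg.Agent.Lib.Helper28.pPrimeCore_characteristic (G := ↥C) 2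
  have hnorm : (Cfsg.oddCore ↥C).Normal := inferInstance
  refine ⟨?_, ?_, ?_, ?_⟩
  · rw [hO, Subgroup.card_map_of_injective C.subtype_injective]
    exact Nat.coprime_two_right.1 (Cfsg.Agent.Lib.Helper28.pPrimeCore_coprime (G := ↥C) 2)
  · rw [hO]; exact Subgroup.map_subtype_le _
  · intro g hg y hy
    rw [hO] at hy ⊢
    obtain ⟨y', hy', rfl⟩ := hy
    exact ⟨⟨g, hg⟩ * y' * ⟨g, hg⟩⁻¹, hnorm.conj_mem y' hy' ⟨g, hg⟩, rfl⟩
  · intro x hx
    have hx' : (⟨x, hx⟩ : ↥C) ∈ N ⊔ (P : Subgroup ↥C) := by
      rw [hc.sup_eq_top]; trivial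
    rw [Subgroup.mem_sup_of_normal_left] at hx'
    obtain ⟨a, ha, b, hb, hab⟩ := hx'
    refine ⟨a, ?_, b, ?_, ?_⟩
    · rw [hO]; exact ⟨a, hNle ha, rfl⟩
    · rw [hP, Subgroup.mem_subgroupOf] at hb; exact hb
    · exact (congrArg Subtype.val hab).symm

end Cfsg.Agent.Lib.Helper92.BSW
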