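import Mathlib
import Cfsg.Agent.Lib.Helper92.Basic
import Cfsg.Agent.Lib.Helper3.ExtraspecialIso

set_option autoImplicit false

namespace Cfsg.Agent.Lib.Helper92

open Cfsg.Agent.Lib.Helper3
open scoped commutatorElement

/-- number of solutions of `x ^ 2 = 1` -/
noncomputable def NN (E : Type*) [Group E] : ℕ := Nat.card {x : E // x ^ 2 = 1}

/-- Elementwise package for a finite group with central commutators and centre `{1, z}`. -/
structure ES2 (E : Type*) [Group E] (z : E) : Prop where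
  hc : commutator E ≤ Subgroup.center E
  hZ : Nat.card (Subgroup.center E) = 2
  zc : z ∈ Subgroup.center E
  z1 : z ≠ 1
  zz : z ^ 2 = 1
  all : ∀ c ∈ Subgroup.center E, c = 1 ∨ c = z

theorem ES2.exists_of {E : Type*} [Group E] (hc : commutator E ≤ Subgroup.center E)
    (hZ : Nat.card (Subgroup.center E) = 2) : ∃ z : E, ES2 E z := by
  obtain ⟨z, hzZ, hz1, hzord, hzall, -⟩ := exists_gen_of_card_two _ hZ
  exact ⟨z, hc, hZ, hzZ, hz1, by rw [← hzord, pow_orderOf_eq_one], hzall⟩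

section

variable {E : Type*} [Group E] {z : E}

theorem ES2.comm_z (h : ES2 E z) (g : E) : g * z = z * g := Subgroup.mem_center_iff.1 h.zc g

theorem ES2.comm_eq (h : ES2 E z) {x y : E} (hxy : ¬ Commute x y) : ⁅x, y⁆ = z := by
  rcases h.all _ (comm_mem_center h.hc x y) with h1 | h1
  · exact absurd (commutatorElement_eq_one_iff_commute.1 h1) hxy
  · exact h1

theorem ES2.sq (h : ES2 E z) (x : E) : x ^ 2 = 1 ∨ x ^ 2 = z := by
  have : Fact (Nat.Prime 2) := ⟨Nat.prime_two⟩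
  exact h.all _ (pow_p_mem_center h.hc h.hZ x)

theorem ES2.sq_ne_one_iff (h : ES2 E z) (x : E) : x ^ 2 ≠ 1 ↔ x ^ 2 = z := by
  constructor
  · intro h1
    exact (h.sq x).resolve_left h1
  · intro h1 h2
    exact h.z1 (h1.symm.trans h2)

/-- `(x y)² = x² y² [y, x]` -/
theorem ES2.mul_sq (h : ES2 E z) (x y : E) : (x * y) ^ 2 = x ^ 2 * y ^ 2 * ⁅y, x⁆ := by
  have hz := Subgroup.mem_center_iff.1 (comm_mem_center h.hc y x)
  have e : y * x = ⁅y, x⁆ * (x * y) := by rw [commutatorElement_def]; group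
  calc (x * y) ^ 2 = x * (y * x) * y := by rw [pow_two]; group
    _ = x * (⁅y, x⁆ * (x * y)) * y := by rw [e]
    _ = (x * ⁅y, x⁆) * (x * y * y) := by group
    _ = (⁅y, x⁆ * x) * (x * y * y) := by rw [hz x]
    _ = ⁅y, x⁆ * (x ^ 2 * y ^ 2) := by rw [pow_two, pow_two]; group
    _ = x ^ 2 * y ^ 2 * ⁅y, x⁆ := (hz _).symm

theorem ES2.mul_sq_of_commute (x y : E) (hxy : Commute x y) :
    (x * y) ^ 2 = x ^ 2 * y ^ 2 := hxy.mul_pow 2

/-- the kernel `C_E(x) ∩ C_E(y)` is again of the same kind -/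
theorem ES2.ker (h : ES2 E z) {x y : E} (hxy : ¬ Commute x y) :
    ES2 (commHom₂ h.hc x y).ker ⟨z, center_le_ker h.hc x y h.zc⟩ := by
  have : Fact (Nat.Prime 2) := ⟨Nat.prime_two⟩
  refine ⟨commutator_ker_le_center h.hc h.hZ x y hxy, card_center_ker h.hc h.hZ x y hxy,
    (mem_center_ker_iff h.hc h.hZ x y hxy _).2 h.zc, fun h1 => h.z1 (congrArg Subtype.val h1),
    Subtype.ext h.zz, ?_⟩
  intro c hcc
  rcases h.all c ((mem_center_ker_iff h.hc h.hZ x y hxy c).1 hcc) with h1 | h1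
  · left; exact Subtype.ext h1
  · right; exact Subtype.ext h1

end

section count

variable {E : Type*} [Group E] {z : E}

/-- the decomposition map `(i, k, q) ↦ y^i x^k q` -/
def decMap (h : ES2 E z) (x y : E) : (Fin 2 × Fin 2) × (commHom₂ h.hc x y).ker → E :=
  fun w => y ^ (w.1.1 : ℕ) * x ^ (w.1.2 : ℕ) * w.2

theorem fin2_eq_of_pow_eq {M : Type*} [Monoid M] {a : M} (ha : a ≠ 1) {i j : Fin 2}
    (h : a ^ (i : ℕ) = a ^ (j : ℕ)) : i = j := by
  fin_cases i <;> fin_cases j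
  · rfl
  · exact absurd (by simpa using h.symm) ha
  · exact absurd (by simpa using h) ha
  · rfl

theorem decMap_bijective [Finite E] (h : ES2 E z) {x y : E} (hxy : ¬ Commute x y) :
    Function.Bijective (decMap h x y) := by
  have : Fact (Nat.Prime 2) := ⟨Nat.prime_two⟩
  have hxq : ∀ q : (commHom₂ h.hc x y).ker, commHom h.hc x q = 1 := fun q =>
    (mem_ker_commHom h.hc x q).2 ((mem_ker_commHom₂ h.hc x y q).1 q.2).1
  have hyq : ∀ q : (commHom₂ h.hc x y).ker, commHom h.hc y q = 1 := fun q =>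
    (mem_ker_commHom h.hc y q).2 ((mem_ker_commHom₂ h.hc x y q).1 q.2).2
  have hxx : commHom h.hc x x = 1 := (mem_ker_commHom h.hc x x).2 (Commute.refl x)
  have hyy : commHom h.hc y y = 1 := (mem_ker_commHom h.hc y y).2 (Commute.refl y)
  have hxy1 : commHom h.hc x y ≠ 1 := fun h1 => hxy ((mem_ker_commHom h.hc x y).1 h1)
  have hyx1 : commHom h.hc y x ≠ 1 := fun h1 => hxy ((mem_ker_commHom h.hc y x).1 h1).symm
  have k1 : ∀ w, commHom h.hc x (decMap h x y w) = (commHom h.hc x y) ^ (w.1.1 : ℕ) := by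
    intro w
    simp only [decMap, map_mul, map_pow, hxx, hxq, one_pow, mul_one]
  have k2 : ∀ w, commHom h.hc y (decMap h x y w) = (commHom h.hc y x) ^ (w.1.2 : ℕ) := by
    intro w
    simp only [decMap, map_mul, map_pow, hyy, hyq, one_pow, mul_one, one_mul]
  have hinj : Function.Injective (decMap h x y) := by
    rintro ⟨⟨i, k⟩, q⟩ ⟨⟨i', k'⟩, q'⟩ hw
    have h1 : i = i' := by
      apply fin2_eq_of_pow_eq hxy1
      have := congrArg (commHom h.hc x) hw
      rwa [k1, k1] at this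
    have h2 : k = k' := by
      apply fin2_eq_of_pow_eq hyx1
      have := congrArg (commHom h.hc y) hw
      rwa [k2, k2] at this
    subst h1 h2
    have h3 : (q : E) = q' := by
      simpa [decMap] using hw
    rw [Subtype.ext h3]
  apply hinj.bijective_of_nat_card_le
  rw [card_eq_sq_mul_card_ker h.hc h.hZ x y hxy, Nat.card_prod, Nat.card_prod]
  simp

theorem decMap_sq (h : ES2 E z) (x y : E) (w : (Fin 2 × Fin 2) × (commHom₂ h.hc x y).ker) :
    (decMap h x y w) ^ 2 = (y ^ (w.1.1 : ℕ) * x ^ (w.1.2 : ℕ)) ^ 2 * (w.2 : E) ^ 2 := by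
  have hq := (mem_ker_commHom₂ h.hc x y w.2).1 w.2.2
  exact ((hq.2.pow_left _).mul_left (hq.1.pow_left _)).mul_pow 2

/-- number of `q ∈ K` with `t q² = 1` -/
noncomputable def cnt (K : Subgroup E) (t : E) : ℕ := Nat.card {q : K // t * (q : E) ^ 2 = 1}

theorem NN_eq_sum [Finite E] (h : ES2 E z) {x y : E} (hxy : ¬ Commute x y) :
    NN E = ∑ r : Fin 2 × Fin 2, cnt (commHom₂ h.hc x y).ker ((y ^ (r.1 : ℕ) * x ^ (r.2 : ℕ)) ^ 2) := by
  let e := Equiv.ofBijective _ (decMap_bijective h hxy)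
  have h1 : NN E = Nat.card {w : (Fin 2 × Fin 2) × (commHom₂ h.hc x y).ker //
      (y ^ (w.1.1 : ℕ) * x ^ (w.1.2 : ℕ)) ^ 2 * (w.2 : E) ^ 2 = 1} := by
    apply Nat.card_congr
    refine (Equiv.subtypeEquiv e ?_).symm
    intro w
    show _ ↔ (decMap h x y w) ^ 2 = 1
    rw [decMap_sq]
  rw [h1, Nat.card_congr (Equiv.subtypeProdEquivSigmaSubtype
    (fun (r : Fin 2 × Fin 2) (q : (commHom₂ h.hc x y).ker) =>
      (y ^ (r.1 : ℕ) * x ^ (r.2 : ℕ)) ^ 2 * (q : E) ^ 2 = 1)), Nat.card_sigma]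
  rfl

theorem cnt_one (K : Subgroup E) : cnt K 1 = NN K := by
  apply Nat.card_congr
  refine Equiv.subtypeEquivRight ?_
  intro q
  rw [one_mul]
  constructor
  · intro h; exact Subtype.ext h
  · intro h; exact congrArg Subtype.val h

theorem cnt_z [Finite E] (h : ES2 E z) (K : Subgroup E) : cnt K z + NN K = Nat.card K := by
  classical
  have h1 : cnt K z = Nat.card {q : K // ¬ q ^ 2 = 1} := by
    apply Nat.card_congr
    refine Equiv.subtypeEquivRight ?_
    intro q
    have e : (q ^ 2 = 1) ↔ ((q : E) ^ 2 = 1) :=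
      ⟨fun h => congrArg Subtype.val h, fun h => Subtype.ext h⟩
    rw [e]
    constructor
    · intro h2 h3
      rw [h3, mul_one] at h2
      exact h.z1 h2
    · intro h2
      rw [(h.sq_ne_one_iff _).1 h2, ← pow_two, h.zz]
  rw [h1, NN]
  have := Fintype.ofFinite K
  rw [Nat.card_eq_fintype_card, Nat.card_eq_fintype_card, Nat.card_eq_fintype_card,
    Fintype.card_subtype_compl]
  have := Fintype.card_subtype_le (fun q : K => q ^ 2 = 1)
  omega

/-- counting formula for a noncommuting pair of involutions -/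
theorem NN_of_invol_pair [Finite E] (h : ES2 E z) {x y : E} (hxy : ¬ Commute x y)
    (hx : x ^ 2 = 1) (hy : y ^ 2 = 1) :
    NN E = 2 * NN (commHom₂ h.hc x y).ker + Nat.card (commHom₂ h.hc x y).ker := by
  rw [NN_eq_sum h hxy, Fintype.sum_prod_type, Fin.sum_univ_two, Fin.sum_univ_two, Fin.sum_univ_two]
  have e11 : (y * x) ^ 2 = z := by
    rw [h.mul_sq, hx, hy, h.comm_eq hxy, one_mul, one_mul]
  simp only [Fin.val_zero, Fin.val_one, Fin.isValue, pow_zero, pow_one, one_mul, mul_one, one_pow,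
    hx, hy, e11, cnt_one]
  have := cnt_z h (commHom₂ h.hc x y).ker
  omega

end count

end Cfsg.Agent.Lib.Helper92
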