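import Mathlib
import Cfsg.Agent.Lib.Helper92.ES2Count

set_option autoImplicit false

namespace Cfsg.Agent.Lib.Helper92

open Cfsg.Agent.Lib.Helper3
open scoped commutatorElement

section

variable {E : Type*} [Group E] {z : E}

theorem ES2.exists_not_commute (_h : ES2 E z) {x : E} (hxc : x ∉ Subgroup.center E) :
    ∃ y, ¬ Commute x y := by
  by_contra hcon
  push Not at hcon
  apply hxc
  rw [Subgroup.mem_center_iff]
  intro g
  exact (hcon g).symm.eq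

theorem ES2.not_mem_center (_h : ES2 E z) {x y : E} (hxy : ¬ Commute x y) :
    x ∉ Subgroup.center E := fun hx => hxy (Subgroup.mem_center_iff.1 hx y).symm

/-- From a noncentral involution, a noncommuting pair of involutions. -/
theorem ES2.exists_invol_pair (h : ES2 E z) {x : E} (hx : x ^ 2 = 1)
    (hxc : x ∉ Subgroup.center E) : ∃ y, ¬ Commute x y ∧ y ^ 2 = 1 := by
  obtain ⟨y, hxy⟩ := h.exists_not_commute hxc
  rcases h.sq y with hy | hy
  · exact ⟨y, hxy, hy⟩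
  · refine ⟨x * y, ?_, ?_⟩
    · intro h1
      apply hxy
      have := (Commute.refl x).inv_right.mul_right h1
      rwa [inv_mul_cancel_left] at this
    · rw [h.mul_sq, hx, hy, h.comm_eq (fun h1 => hxy h1.symm), one_mul, ← pow_two, h.zz]

theorem ES2.exists_noncentral_invol (h : ES2 E z) {x y c : E} (hxy : ¬ Commute x y)
    (hcx : Commute x c) (hcy : Commute y c) (hc : c ∉ Subgroup.center E) :
    ∃ t, t ^ 2 = 1 ∧ t ∉ Subgroup.center E := by
  rcases h.sq x with hx | hx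
  · exact ⟨x, hx, h.not_mem_center hxy⟩
  rcases h.sq c with hc2 | hc2
  · exact ⟨c, hc2, hc⟩
  refine ⟨x * c, ?_, ?_⟩
  · rw [hcx.mul_pow, hx, hc2, ← pow_two, h.zz]
  · intro h1
    apply hxy
    have h2 : Commute y (x * c) := (Subgroup.mem_center_iff.1 h1 y)
    have h3 := h2.mul_right hcy.inv_right
    rw [mul_inv_cancel_right] at h3
    exact h3.symm

theorem ES2.NN_eq_two (h : ES2 E z) (hno : ∀ t : E, t ^ 2 = 1 → t ∈ Subgroup.center E) :
    NN E = 2 := by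
  rw [← h.hZ]
  apply Nat.card_congr
  refine Equiv.subtypeEquivRight ?_
  intro x
  constructor
  · exact hno x
  · intro hx
    rcases h.all x hx with rfl | rfl
    · exact one_pow 2
    · exact h.zz

theorem ES2.two_le_card [Finite E] (h : ES2 E z) : 2 ≤ Nat.card E := by
  rw [← h.hZ]; exact Subgroup.card_le_card_group _

theorem NN_pos (E : Type*) [Group E] [Finite E] : 0 < NN E := by
  have : Nonempty {x : E // x ^ 2 = 1} := ⟨⟨1, one_pow 2⟩⟩
  exact Nat.card_pos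

theorem ES2.NN_ne_two [Finite E] (h : ES2 E z) {t : E} (ht : t ^ 2 = 1)
    (htc : t ∉ Subgroup.center E) : NN E ≠ 2 := by
  obtain ⟨y, hty, hy⟩ := h.exists_invol_pair ht htc
  rw [NN_of_invol_pair h hty ht hy]
  have h1 := (h.ker hty).two_le_card
  have h2 := NN_pos (commHom₂ h.hc t y).ker
  omega

theorem ES2.card_of_abelian (h : ES2 E z) (hab : ∀ x y : E, Commute x y) : Nat.card E = 2 := by
  have : Subgroup.center E = ⊤ := by
    rw [eq_top_iff]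
    intro x _
    rw [Subgroup.mem_center_iff]
    intro g
    exact (hab g x).eq
  have h2 := h.hZ
  rw [this, Subgroup.card_top] at h2
  exact h2

theorem ES2.card_eq [Finite E] (h : ES2 E z) {x y : E} (hxy : ¬ Commute x y) :
    Nat.card E = 4 * Nat.card (commHom₂ h.hc x y).ker := by
  have : Fact (Nat.Prime 2) := ⟨Nat.prime_two⟩
  rw [card_eq_sq_mul_card_ker h.hc h.hZ x y hxy]
  norm_num

end

universe u v

/-- Order and number of solutions of `x² = 1`. -/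
theorem ES2.count_aux (N : ℕ) : ∀ (E : Type u) [Group E] [Finite E] (z : E), ES2 E z →
    Nat.card E = N → ∃ m : ℕ, Nat.card E = 2 ^ (2 * m + 1) ∧
      (NN E = 2 ^ (2 * m) + 2 ^ m ∨ (1 ≤ m ∧ NN E + 2 ^ m = 2 ^ (2 * m))) := by
  induction N using Nat.strong_induction_on with
  | _ N ih =>
  intro E _ _ z h hN
  by_cases hab : ∀ x y : E, Commute x y
  · refine ⟨0, by rw [h.card_of_abelian hab]; norm_num, Or.inl ?_⟩
    rw [h.NN_eq_two]
    · norm_num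
    · intro t _
      rw [Subgroup.mem_center_iff]
      intro g
      exact (hab g t).eq
  by_cases hno : ∀ t : E, t ^ 2 = 1 → t ∈ Subgroup.center E
  · push Not at hab
    obtain ⟨x, y, hxy⟩ := hab
    refine ⟨1, ?_, Or.inr ⟨le_rfl, ?_⟩⟩
    · rw [h.card_eq hxy]
      have hK : Nat.card (commHom₂ h.hc x y).ker = 2 := by
        apply (h.ker hxy).card_of_abelian
        have hcen : ∀ c : (commHom₂ h.hc x y).ker, (c : E) ∈ Subgroup.center E := by
          intro c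
          by_contra hc
          have hq := (mem_ker_commHom₂ h.hc x y c).1 c.2
          obtain ⟨t, ht, htc⟩ := h.exists_noncentral_invol hxy hq.1 hq.2 hc
          exact htc (hno t ht)
        intro a b
        exact Subtype.ext (Subgroup.mem_center_iff.1 (hcen b) a)
      rw [hK]; norm_num
    · rw [h.NN_eq_two hno]; norm_num
  · push Not at hno
    obtain ⟨x, hx, hxc⟩ := hno
    obtain ⟨y, hxy, hy⟩ := h.exists_invol_pair hx hxc
    have hcard := h.card_eq hxy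
    have hlt : Nat.card (commHom₂ h.hc x y).ker < N := by
      have := (h.ker hxy).two_le_card
      omega
    obtain ⟨m, hm, hNN⟩ := ih _ hlt (commHom₂ h.hc x y).ker _ (h.ker hxy) rfl
    refine ⟨m + 1, ?_, ?_⟩
    · rw [hcard, hm]; ring
    · rw [NN_of_invol_pair h hxy hx hy, hm]
      rcases hNN with h1 | ⟨-, h1⟩
      · left; rw [h1]; ring
      · right
        refine ⟨by omega, ?_⟩
        have e1 : 2 ^ (2 * (m + 1)) = 4 * 2 ^ (2 * m) := by ring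
        have e2 : 2 ^ (2 * m + 1) = 2 * 2 ^ (2 * m) := by ring
        have e3 : 2 ^ (m + 1) = 2 * 2 ^ m := by ring
        rw [e1, e2, e3, ← h1]; ring

/-- Classification: order and number of solutions of `x² = 1` determine the group. -/
theorem ES2.iso_aux (N : ℕ) : ∀ (E₁ : Type u) (E₂ : Type v) [Group E₁] [Group E₂] [Finite E₁]
    [Finite E₂] (z₁ : E₁) (z₂ : E₂), ES2 E₁ z₁ → ES2 E₂ z₂ → Nat.card E₁ = N → Nat.card E₂ = N →
    NN E₁ = NN E₂ → ∃ F : E₁ ≃* E₂, F z₁ = z₂ := by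
  induction N using Nat.strong_induction_on with
  | _ N ih =>
  intro E₁ E₂ _ _ _ _ z₁ z₂ h₁ h₂ hN₁ hN₂ hNN
  have : Fact (Nat.Prime 2) := ⟨Nat.prime_two⟩
  have step : ∀ (x₁ y₁ : E₁) (x₂ y₂ : E₂) (hxy₁ : ¬ Commute x₁ y₁) (hxy₂ : ¬ Commute x₂ y₂),
      NN (commHom₂ h₁.hc x₁ y₁).ker = NN (commHom₂ h₂.hc x₂ y₂).ker →
      ((x₁ ^ 2 = 1 ∧ x₂ ^ 2 = 1) ∨ (x₁ ^ 2 = z₁ ∧ x₂ ^ 2 = z₂)) →
      ((y₁ ^ 2 = 1 ∧ y₂ ^ 2 = 1) ∨ (y₁ ^ 2 = z₁ ∧ y₂ ^ 2 = z₂)) →
      ∃ F : E₁ ≃* E₂, F z₁ = z₂ := by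
    intro x₁ y₁ x₂ y₂ hxy₁ hxy₂ hNK hx hy
    have hc₁ := h₁.card_eq hxy₁
    have hc₂ := h₂.card_eq hxy₂
    have hlt : Nat.card (commHom₂ h₁.hc x₁ y₁).ker < N := by
      have := (h₁.ker hxy₁).two_le_card
      omega
    obtain ⟨f, hf⟩ := ih _ hlt (commHom₂ h₁.hc x₁ y₁).ker (commHom₂ h₂.hc x₂ y₂).ker _ _
      (h₁.ker hxy₁) (h₂.ker hxy₂) rfl (by omega) hNK
    have hval : ∀ (a : E₁) (b : E₂), ((a = 1 ∧ b = 1) ∨ (a = z₁ ∧ b = z₂)) →
        ∀ q : (commHom₂ h₁.hc x₁ y₁).ker, (q : E₁) = a → (f q : E₂) = b := by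
      rintro a b (⟨rfl, rfl⟩ | ⟨rfl, rfl⟩) q hq
      · have : q = 1 := Subtype.ext hq
        rw [this, map_one]; rfl
      · have : q = ⟨a, center_le_ker h₁.hc x₁ y₁ h₁.zc⟩ := Subtype.ext hq
        rw [this, hf]
    obtain ⟨F, hF, -, -⟩ := exists_extension h₁.hc h₂.hc h₁.hZ h₂.hZ x₁ y₁ x₂ y₂ hxy₁ hxy₂ f
      (hval _ _ (Or.inr ⟨h₁.comm_eq hxy₁, h₂.comm_eq hxy₂⟩)) (hval _ _ hx) (hval _ _ hy)
    refine ⟨F, ?_⟩
    have := hF ⟨z₁, center_le_ker h₁.hc x₁ y₁ h₁.zc⟩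
    rw [hf] at this
    exact this
  by_cases hab₁ : ∀ x y : E₁, Commute x y
  · have hcard₁ := h₁.card_of_abelian hab₁
    have hcard₂ : Nat.card E₂ = 2 := by rw [hN₂, ← hN₁, hcard₁]
    have ho₁ : orderOf z₁ = 2 := orderOf_eq_prime h₁.zz h₁.z1
    have ho₂ : orderOf z₂ = 2 := orderOf_eq_prime h₂.zz h₂.z1
    exact ⟨mulEquivOfOrderOfEq (fun x => mem_zpowers_of_prime_card hcard₁ h₁.z1)
      (fun x => mem_zpowers_of_prime_card hcard₂ h₂.z1) (ho₁.trans ho₂.symm),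
      mulEquivOfOrderOfEq_apply_gen _ _ _⟩
  have hab₂ : ¬ ∀ x y : E₂, Commute x y := by
    intro hab₂
    have hcard₂ := h₂.card_of_abelian hab₂
    push Not at hab₁
    obtain ⟨x, y, hxy⟩ := hab₁
    have h3 := h₁.card_eq hxy
    have h4 := (h₁.ker hxy).two_le_card
    omega
  by_cases hno₁ : ∀ t : E₁, t ^ 2 = 1 → t ∈ Subgroup.center E₁
  · have hno₂ : ∀ t : E₂, t ^ 2 = 1 → t ∈ Subgroup.center E₂ := by
      intro t ht
      by_contra htc
      exact h₂.NN_ne_two ht htc (hNN ▸ h₁.NN_eq_two hno₁)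
    push Not at hab₁ hab₂
    obtain ⟨x₁, y₁, hxy₁⟩ := hab₁
    obtain ⟨x₂, y₂, hxy₂⟩ := hab₂
    have sq₁ : ∀ x : E₁, x ∉ Subgroup.center E₁ → x ^ 2 = z₁ := fun x hx =>
      (h₁.sq x).resolve_left (fun h => hx (hno₁ x h))
    have sq₂ : ∀ x : E₂, x ∉ Subgroup.center E₂ → x ^ 2 = z₂ := fun x hx =>
      (h₂.sq x).resolve_left (fun h => hx (hno₂ x h))
    refine step x₁ y₁ x₂ y₂ hxy₁ hxy₂ ?_
      (Or.inr ⟨sq₁ _ (h₁.not_mem_center hxy₁), sq₂ _ (h₂.not_mem_center hxy₂)⟩)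
      (Or.inr ⟨sq₁ _ (h₁.not_mem_center (fun h => hxy₁ h.symm)),
        sq₂ _ (h₂.not_mem_center (fun h => hxy₂ h.symm))⟩)
    rw [(h₁.ker hxy₁).NN_eq_two, (h₂.ker hxy₂).NN_eq_two]
    · intro t ht
      rw [mem_center_ker_iff h₂.hc h₂.hZ x₂ y₂ hxy₂]
      exact hno₂ t (congrArg Subtype.val ht)
    · intro t ht
      rw [mem_center_ker_iff h₁.hc h₁.hZ x₁ y₁ hxy₁]
      exact hno₁ t (congrArg Subtype.val ht)
  · have hno₂ : ¬ ∀ t : E₂, t ^ 2 = 1 → t ∈ Subgroup.center E₂ := by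
      intro hno₂
      push Not at hno₁
      obtain ⟨t, ht, htc⟩ := hno₁
      exact h₁.NN_ne_two ht htc (hNN ▸ h₂.NN_eq_two hno₂)
    push Not at hno₁ hno₂
    obtain ⟨x₁, hx₁, hxc₁⟩ := hno₁
    obtain ⟨x₂, hx₂, hxc₂⟩ := hno₂
    obtain ⟨y₁, hxy₁, hy₁⟩ := h₁.exists_invol_pair hx₁ hxc₁
    obtain ⟨y₂, hxy₂, hy₂⟩ := h₂.exists_invol_pair hx₂ hxc₂
    refine step x₁ y₁ x₂ y₂ hxy₁ hxy₂ ?_ (Or.inl ⟨hx₁, hx₂⟩) (Or.inl ⟨hy₁, hy₂⟩)
    have e₁ := NN_of_invol_pair h₁ hxy₁ hx₁ hy₁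
    have e₂ := NN_of_invol_pair h₂ hxy₂ hx₂ hy₂
    have hc₁ := h₁.card_eq hxy₁
    have hc₂ := h₂.card_eq hxy₂
    omega

end Cfsg.Agent.Lib.Helper92
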