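import Mathlib
import Cfsg.Agent.Lib.Helper92.ES2Class
import Cfsg.Agent.Lib.Helper92.CommClosure

set_option autoImplicit false

namespace Cfsg.Agent.Lib.Helper92

open Cfsg.Agent.Lib.Helper3
open scoped commutatorElement

section

variable {E : Type*} [Group E] {z : E}

/-- If `A ≤ C(x)` then `A ∩ C(x) ∩ C(y)` has index at most two in `A`. -/
theorem ES2.card_le_two_mul [Finite E] (h : ES2 E z) (x y : E) (A : Subgroup E)
    (hAx : ∀ a ∈ A, Commute x a) :
    Nat.card A ≤ 2 * Nat.card (A.subgroupOf (commHom₂ h.hc x y).ker) := by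
  let f : A →* Subgroup.center E := (commHom h.hc y).comp A.subtype
  have h1 := f.ker.card_mul_index
  rw [Subgroup.index_ker] at h1
  have h2 : Nat.card f.range ≤ 2 := by
    rw [← h.hZ]; exact Subgroup.card_le_card_group _
  have h3 : Nat.card f.ker ≤ Nat.card (A.subgroupOf (commHom₂ h.hc x y).ker) := by
    have hmem : ∀ a : f.ker, ((a : A) : E) ∈ (commHom₂ h.hc x y).ker := by
      intro a
      rw [mem_ker_commHom₂]
      refine ⟨hAx _ a.1.2, ?_⟩
      have : commHom h.hc y ((a : A) : E) = 1 := a.2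
      exact (mem_ker_commHom h.hc y _).1 this
    apply Nat.card_le_card_of_injective
      (fun a : f.ker => (⟨⟨((a : A) : E), hmem a⟩, by
        rw [Subgroup.mem_subgroupOf]; exact a.1.2⟩ : A.subgroupOf (commHom₂ h.hc x y).ker))
    intro a b hab
    have h5 := congrArg (fun t : ↥(A.subgroupOf (commHom₂ h.hc x y).ker) => ((t : ↥(commHom₂ h.hc x y).ker) : E)) hab
    exact Subtype.ext (Subtype.ext h5)
  calc Nat.card A = Nat.card f.ker * Nat.card f.range := h1.symm
    _ ≤ Nat.card (A.subgroupOf (commHom₂ h.hc x y).ker) * 2 := Nat.mul_le_mul h3 h2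
    _ = _ := by ring

theorem two_mul_card_le_of_lt {G : Type*} [Group G] [Finite G] {B A : Subgroup G} (hBA : B ≤ A)
    {x : G} (hxA : x ∈ A) (hxB : x ∉ B) : 2 * Nat.card B ≤ Nat.card A := by
  obtain ⟨k, hk⟩ := Subgroup.card_dvd_of_le hBA
  have hpos : 0 < Nat.card A := Nat.card_pos
  have hposB : 0 < Nat.card B := Nat.card_pos
  have hk1 : k ≠ 1 := by
    rintro rfl
    have : B = A := Subgroup.eq_of_le_of_card_ge hBA (by rw [hk, mul_one])
    exact hxB (this ▸ hxA)
  have hk0 : k ≠ 0 := by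
    rintro rfl
    omega
  have : 2 ≤ k := by omega
  rw [hk]
  nlinarith

theorem card_ker_of_card [Finite E] (h : ES2 E z) {x y : E} (hxy : ¬ Commute x y) {m : ℕ}
    (hm : Nat.card E = 2 ^ (2 * m + 1)) :
    ∃ m', m = m' + 1 ∧ Nat.card (commHom₂ h.hc x y).ker = 2 ^ (2 * m' + 1) := by
  have h1 := h.card_eq hxy
  rcases m with _ | m'
  · exfalso
    rw [hm] at h1
    have := (h.ker hxy).two_le_card
    omega
  · refine ⟨m', rfl, ?_⟩
    have e : 2 ^ (2 * (m' + 1) + 1) = 4 * 2 ^ (2 * m' + 1) := by ring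
    rw [hm, e] at h1
    omega

/-- adjoin a commuting involution to an elementary abelian subgroup -/
theorem exists_adjoin {G : Type*} [Group G] [Finite G] (B : Subgroup G)
    (hBc : ∀ a ∈ B, ∀ b ∈ B, Commute a b) (hB2 : ∀ a ∈ B, a ^ 2 = 1) {x : G} (hx : x ^ 2 = 1)
    (hxB : ∀ b ∈ B, Commute x b) (hxn : x ∉ B) :
    ∃ A : Subgroup G, (∀ a ∈ A, ∀ b ∈ A, Commute a b) ∧ (∀ a ∈ A, a ^ 2 = 1) ∧
      2 * Nat.card B ≤ Nat.card A := by
  have hN : ∀ s ∈ ((B : Set G) ∪ {x}), s ∈ Subgroup.normalizer ((⊥ : Subgroup G) : Set G) := by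
    intro s _
    rw [Subgroup.normalizer_eq_top]; trivial
  have hcomm : ∀ a ∈ Subgroup.closure ((B : Set G) ∪ {x}),
      ∀ b ∈ Subgroup.closure ((B : Set G) ∪ {x}), a * b * a⁻¹ * b⁻¹ ∈ (⊥ : Subgroup G) := by
    apply comm_mem_closure hN hN
    have aux : ∀ {a b : G}, Commute a b → a * b * a⁻¹ * b⁻¹ ∈ (⊥ : Subgroup G) := by
      intro a b hab
      rw [Subgroup.mem_bot, hab.eq]; group
    rintro a (ha | rfl) b (hb | rfl)
    · exact aux (hBc a ha b hb)
    · exact aux (hxB a ha).symm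
    · exact aux (hxB b hb)
    · exact aux (Commute.refl _)
  refine ⟨Subgroup.closure ((B : Set G) ∪ {x}), ?_, ?_, ?_⟩
  · intro a ha b hb
    have := Subgroup.mem_bot.1 (hcomm a ha b hb)
    show a * b = b * a
    calc a * b = (a * b * a⁻¹ * b⁻¹) * (b * a) := by group
      _ = b * a := by rw [this, one_mul]
  · intro a ha
    rw [pow_two]
    apply Subgroup.mem_bot.1
    refine sq_mem_closure hcomm ?_ a ha
    rintro s (hs | rfl)
    · rw [Subgroup.mem_bot, ← pow_two]; exact hB2 s hs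
    · rw [Subgroup.mem_bot, ← pow_two]; exact hx
  · apply two_mul_card_le_of_lt (x := x)
    · intro b hb
      exact Subgroup.subset_closure (Or.inl hb)
    · exact Subgroup.subset_closure (Or.inr rfl)
    · exact hxn

end

universe u

/-- abelian subgroups have order at most `2^(m+1)` -/
theorem ES2.card_abelian_le (N : ℕ) : ∀ (E : Type u) [Group E] [Finite E] (z : E), ES2 E z →
    ∀ m : ℕ, Nat.card E = N → Nat.card E = 2 ^ (2 * m + 1) → ∀ A : Subgroup E,
    (∀ a ∈ A, ∀ b ∈ A, Commute a b) → Nat.card A ≤ 2 ^ (m + 1) := by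
  induction N using Nat.strong_induction_on with
  | _ N ih =>
  intro E _ _ z h m hN hm A hA
  by_cases hAZ : A ≤ Subgroup.center E
  · calc Nat.card A ≤ Nat.card (Subgroup.center E) := Subgroup.card_le_of_le hAZ
      _ = 2 ^ 1 := by rw [h.hZ]; norm_num
      _ ≤ 2 ^ (m + 1) := Nat.pow_le_pow_right (by norm_num) (by omega)
  · obtain ⟨x, hxA, hxc⟩ := SetLike.not_le_iff_exists.1 hAZ
    obtain ⟨y, hxy⟩ := h.exists_not_commute hxc
    obtain ⟨m', rfl, hK⟩ := card_ker_of_card h hxy hm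
    have hlt : Nat.card (commHom₂ h.hc x y).ker < N := by
      have := h.card_eq hxy
      have := (h.ker hxy).two_le_card
      omega
    have h1 := ih _ hlt (commHom₂ h.hc x y).ker _ (h.ker hxy) m' rfl hK
      (A.subgroupOf (commHom₂ h.hc x y).ker) (by
        intro a ha b hb
        exact Subtype.ext (hA a ha b hb))
    have h2 := h.card_le_two_mul x y A (fun a ha => hA x hxA a ha)
    calc Nat.card A ≤ 2 * Nat.card (A.subgroupOf (commHom₂ h.hc x y).ker) := h2
      _ ≤ 2 * 2 ^ (m' + 1) := Nat.mul_le_mul_left 2 h1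
      _ = 2 ^ (m' + 1 + 1) := by ring

/-- minus type has no elementary abelian subgroup of order `2^(m+1)` -/
theorem ES2.minus_no_big (N : ℕ) : ∀ (E : Type u) [Group E] [Finite E] (z : E), ES2 E z →
    ∀ m : ℕ, Nat.card E = N → Nat.card E = 2 ^ (2 * m + 1) → NN E + 2 ^ m = 2 ^ (2 * m) →
    ∀ A : Subgroup E, (∀ a ∈ A, ∀ b ∈ A, Commute a b) → (∀ a ∈ A, a ^ 2 = 1) →
    2 ^ (m + 1) ≤ Nat.card A → False := by
  induction N using Nat.strong_induction_on with
  | _ N ih =>
  intro E _ _ z h m hN hm hNN A hA hA2 hcard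
  have hm0 : m ≠ 0 := by
    rintro rfl
    have := NN_pos E
    norm_num at hNN
    omega
  have hAZ : ¬ A ≤ Subgroup.center E := by
    intro hAZ
    have h1 : Nat.card A ≤ 2 := h.hZ ▸ Subgroup.card_le_of_le hAZ
    have h2 : 2 ^ 2 ≤ 2 ^ (m + 1) := Nat.pow_le_pow_right (by norm_num) (by omega)
    omega
  obtain ⟨x, hxA, hxc⟩ := SetLike.not_le_iff_exists.1 hAZ
  obtain ⟨y, hxy, hy⟩ := h.exists_invol_pair (hA2 x hxA) hxc
  obtain ⟨m', rfl, hK⟩ := card_ker_of_card h hxy hm
  have hlt : Nat.card (commHom₂ h.hc x y).ker < N := by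
    have := h.card_eq hxy
    have := (h.ker hxy).two_le_card
    omega
  have h2 := h.card_le_two_mul x y A (fun a ha => hA x hxA a ha)
  refine ih _ hlt (commHom₂ h.hc x y).ker _ (h.ker hxy) m' rfl hK ?_
    (A.subgroupOf (commHom₂ h.hc x y).ker) ?_ ?_ ?_
  · have e := NN_of_invol_pair h hxy (hA2 x hxA) hy
    rw [e, hK] at hNN
    have e1 : 2 ^ (2 * (m' + 1)) = 4 * 2 ^ (2 * m') := by ring
    have e2 : 2 ^ (2 * m' + 1) = 2 * 2 ^ (2 * m') := by ring
    have e3 : 2 ^ (m' + 1) = 2 * 2 ^ m' := by ring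
    rw [e1, e2, e3] at hNN
    omega
  · intro a ha b hb
    exact Subtype.ext (hA a ha b hb)
  · intro a ha
    exact Subtype.ext (hA2 a ha)
  · have e3 : 2 ^ (m' + 1 + 1) = 2 * 2 ^ (m' + 1) := by ring
    rw [e3] at hcard
    omega

/-- existence of large elementary abelian subgroups -/
theorem ES2.exists_big (N : ℕ) : ∀ (E : Type u) [Group E] [Finite E] (z : E), ES2 E z →
    ∀ m : ℕ, Nat.card E = N → Nat.card E = 2 ^ (2 * m + 1) →
    (NN E = 2 ^ (2 * m) + 2 ^ m → ∃ A : Subgroup E, (∀ a ∈ A, ∀ b ∈ A, Commute a b) ∧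
      (∀ a ∈ A, a ^ 2 = 1) ∧ 2 ^ (m + 1) ≤ Nat.card A) ∧
    (NN E + 2 ^ m = 2 ^ (2 * m) → ∃ A : Subgroup E, (∀ a ∈ A, ∀ b ∈ A, Commute a b) ∧
      (∀ a ∈ A, a ^ 2 = 1) ∧ 2 ^ m ≤ Nat.card A) := by
  induction N using Nat.strong_induction_on with
  | _ N ih =>
  intro E _ _ z h m hN hm
  have hcen : (∀ a ∈ Subgroup.center E, ∀ b ∈ Subgroup.center E, Commute a b) ∧
      (∀ a ∈ Subgroup.center E, a ^ 2 = 1) := by
    constructor
    · intro a _ b hb
      exact Subgroup.mem_center_iff.1 hb a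
    · intro a ha
      rcases h.all a ha with rfl | rfl
      · exact one_pow 2
      · exact h.zz
  by_cases hno : ∀ t : E, t ^ 2 = 1 → t ∈ Subgroup.center E
  · have hNN := h.NN_eq_two hno
    have hpos : 1 ≤ 2 ^ m := Nat.one_le_two_pow
    have e : 2 ^ (2 * m) = 2 ^ m * 2 ^ m := by rw [two_mul, pow_add]
    constructor
    · intro h1
      refine ⟨Subgroup.center E, hcen.1, hcen.2, ?_⟩
      rw [h.hZ, pow_succ]
      rw [hNN, e] at h1
      nlinarith
    · intro h1
      refine ⟨Subgroup.center E, hcen.1, hcen.2, ?_⟩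
      rw [h.hZ]
      rw [hNN, e] at h1
      nlinarith
  · push Not at hno
    obtain ⟨x, hx, hxc⟩ := hno
    obtain ⟨y, hxy, hy⟩ := h.exists_invol_pair hx hxc
    obtain ⟨m', rfl, hK⟩ := card_ker_of_card h hxy hm
    have hlt : Nat.card (commHom₂ h.hc x y).ker < N := by
      have := h.card_eq hxy
      have := (h.ker hxy).two_le_card
      omega
    obtain ⟨ih1, ih2⟩ := ih _ hlt (commHom₂ h.hc x y).ker _ (h.ker hxy) m' rfl hK
    have e := NN_of_invol_pair h hxy hx hy
    have e1 : 2 ^ (2 * (m' + 1)) = 4 * 2 ^ (2 * m') := by ring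
    have e2 : 2 ^ (2 * m' + 1) = 2 * 2 ^ (2 * m') := by ring
    have e3 : 2 ^ (m' + 1) = 2 * 2 ^ m' := by ring
    have up : ∀ (k : ℕ), (∃ A : Subgroup (commHom₂ h.hc x y).ker, (∀ a ∈ A, ∀ b ∈ A, Commute a b) ∧
        (∀ a ∈ A, a ^ 2 = 1) ∧ k ≤ Nat.card A) → ∃ A : Subgroup E,
        (∀ a ∈ A, ∀ b ∈ A, Commute a b) ∧ (∀ a ∈ A, a ^ 2 = 1) ∧ 2 * k ≤ Nat.card A := by
      rintro k ⟨B, hBc, hB2, hBk⟩
      obtain ⟨A, hAc, hA2, hAk⟩ := exists_adjoin (B.map (commHom₂ h.hc x y).ker.subtype)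
        (by
          rintro _ ⟨a, ha, rfl⟩ _ ⟨b, hb, rfl⟩
          exact congrArg Subtype.val (hBc a ha b hb))
        (by
          rintro _ ⟨a, ha, rfl⟩
          exact congrArg Subtype.val (hB2 a ha))
        hx
        (by
          rintro _ ⟨a, -, rfl⟩
          exact ((mem_ker_commHom₂ h.hc x y a).1 a.2).1)
        (by
          rintro ⟨a, -, ha⟩
          apply hxy
          have := ((mem_ker_commHom₂ h.hc x y a).1 a.2).2
          rw [← ha]
          exact this.symm)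
      refine ⟨A, hAc, hA2, ?_⟩
      rw [Subgroup.card_map_of_injective (Subgroup.subtype_injective _)] at hAk
      omega
    constructor
    · intro h1
      rw [e, hK, e1, e2, e3] at h1
      have := up _ (ih1 (by omega))
      rwa [← pow_succ'] at this
    · intro h1
      rw [e, hK, e1, e2, e3] at h1
      have := up _ (ih2 (by omega))
      rwa [← pow_succ'] at this

end Cfsg.Agent.Lib.Helper92
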