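import Mathlib
import Cfsg.Prelude.Def_CaseTheorems
import Cfsg.Agent.Lib.Helper92.ES2Rank

set_option autoImplicit false

namespace Cfsg.Agent.Lib.Helper92

open Cfsg.Agent.Lib.Helper3
open scoped commutatorElement

theorem commute_of_isMulCommutative {G : Type*} [Group G] {A : Subgroup G}
    (hA : IsMulCommutative A) : ∀ a ∈ A, ∀ b ∈ A, Commute a b := by
  intro a ha b hb
  have := hA.is_comm.comm (⟨a, ha⟩ : A) ⟨b, hb⟩
  exact congrArg Subtype.val this

theorem isMulCommutative_of_commute {G : Type*} [Group G] {A : Subgroup G}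
    (hA : ∀ a ∈ A, ∀ b ∈ A, Commute a b) : IsMulCommutative A :=
  ⟨⟨fun a b => Subtype.ext (hA a a.2 b b.2)⟩⟩

/-- The `2`-rank of an extraspecial `2`-group in terms of the number of solutions of `x² = 1`. -/
theorem ES2.prank {E : Type*} [Group E] [Finite E] {z : E} (h : ES2 E z) (n : ℕ)
    (hn : Nat.card E = 2 ^ (2 * n + 1)) :
    (NN E = 2 ^ (2 * n) + 2 ^ n ∧ Cfsg.PRankLE 2 (n + 1) E ∧ ¬ Cfsg.PRankLE 2 n E) ∨
    (1 ≤ n ∧ NN E + 2 ^ n = 2 ^ (2 * n) ∧ Cfsg.PRankLE 2 n E ∧ ¬ Cfsg.PRankLE 2 (n - 1) E) := by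
  obtain ⟨m, hm, hNN⟩ := ES2.count_aux _ E z h rfl
  have hmn : m = n := by
    rw [hn] at hm
    have := Nat.pow_right_injective (le_refl 2) hm
    omega
  subst hmn
  rcases hNN with hNN | ⟨h1, hNN⟩
  · left
    refine ⟨hNN, ?_, ?_⟩
    · intro A hA _
      exact ES2.card_abelian_le _ E z h m rfl hn A (commute_of_isMulCommutative hA)
    · intro hr
      obtain ⟨A, hAc, hA2, hcard⟩ := (ES2.exists_big _ E z h m rfl hn).1 hNN
      have := hr A (isMulCommutative_of_commute hAc) hA2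
      have e : 2 ^ (m + 1) = 2 * 2 ^ m := by ring
      have : 0 < 2 ^ m := by positivity
      omega
  · right
    refine ⟨h1, hNN, ?_, ?_⟩
    · intro A hA hA2
      by_contra hlt
      push Not at hlt
      have hdvd : Nat.card A ∣ 2 ^ (2 * m + 1) := hn ▸ Subgroup.card_subgroup_dvd_card A
      obtain ⟨k, -, hk⟩ := (Nat.dvd_prime_pow Nat.prime_two).1 hdvd
      rw [hk] at hlt
      have hmk : m < k := (Nat.pow_lt_pow_iff_right (by norm_num)).1 hlt
      refine ES2.minus_no_big _ E z h m rfl hn hNN A (commute_of_isMulCommutative hA) hA2 ?_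
      rw [hk]
      exact Nat.pow_le_pow_right (by norm_num) hmk
    · intro hr
      obtain ⟨A, hAc, hA2, hcard⟩ := (ES2.exists_big _ E z h m rfl hn).2 hNN
      have := hr A (isMulCommutative_of_commute hAc) hA2
      obtain ⟨m', rfl⟩ : ∃ m', m = m' + 1 := ⟨m - 1, by omega⟩
      have e : 2 ^ (m' + 1) = 2 * 2 ^ m' := by ring
      have : 0 < 2 ^ m' := by positivity
      simp only [Nat.add_sub_cancel] at *
      omega

end Cfsg.Agent.Lib.Helper92
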