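import Mathlib
import Cfsg.Agent.Lib.Helper92.ES2Rank2
import Cfsg.Agent.Lib.Helper92.ESSub

set_option autoImplicit false

namespace Cfsg.Agent.Lib.Helper92

open scoped commutatorElement

/-- elementwise criterion for the package `ES2` -/
theorem ES2.of_elementwise {E : Type*} [Group E] {z : E} (hz1 : z ≠ 1) (hzz : z * z = 1)
    (hcomm : ∀ a b : E, a * b = b * a ∨ a * b = b * a * z)
    (hzc : ∀ a : E, a * z = z * a) (hcent : ∀ c : E, (∀ a, a * c = c * a) → c = 1 ∨ c = z) :
    ES2 E z := by
  have : Fact (Nat.Prime 2) := ⟨Nat.prime_two⟩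
  have hcenter : ∀ c : E, c ∈ Subgroup.center E ↔ c = 1 ∨ c = z := by
    intro c
    rw [Subgroup.mem_center_iff]
    constructor
    · intro h; exact hcent c h
    · rintro (rfl | rfl)
      · intro g; simp
      · exact hzc
  have hord : orderOf z = 2 := orderOf_eq_prime (by rw [pow_two]; exact hzz) hz1
  have hcz : Subgroup.center E = Subgroup.zpowers z := by
    ext c
    rw [hcenter]
    constructor
    · rintro (rfl | rfl)
      · exact one_mem _
      · exact Subgroup.mem_zpowers _
    · exact mem_zpowers_of_orderOf_two hord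
  refine ⟨?_, by rw [hcz, Nat.card_zpowers, hord], (hcenter z).2 (Or.inr rfl), hz1,
    by rw [pow_two]; exact hzz, fun c hc => (hcenter c).1 hc⟩
  rw [commutator_def, Subgroup.commutator_le]
  intro a _ b _
  rw [hcenter, commutatorElement_def]
  rcases hcomm a b with h | h
  · left; rw [h]; group
  · right
    rw [h, hzc]
    group

theorem ES2.mul_cases {E : Type*} [Group E] {z : E} (h : ES2 E z) (a b : E) :
    a * b = b * a ∨ a * b = b * a * z := by
  by_cases hab : Commute a b
  · exact Or.inl hab
  · right
    have := h.comm_eq hab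
    rw [← this, commutatorElement_def]
    have hz := h.comm_z (b * a)
    rw [← this, commutatorElement_def] at hz
    rw [hz]; group

theorem ES2.isExtraspecial {E : Type*} [Group E] [Finite E] {z : E} (h : ES2 E z) {k : ℕ}
    (hk : Nat.card E = 2 ^ k) (hk2 : 2 ≤ k) : Cfsg.IsExtraspecial 2 E := by
  have : Fact (Nat.Prime 2) := ⟨Nat.prime_two⟩
  refine isExtraspecial_of h.z1 (by rw [← pow_two]; exact h.zz) ?_ (fun a => h.comm_z a) ?_ ?_
    (IsPGroup.of_card hk)
  · intro a b
    have := h.all _ (Cfsg.Agent.Lib.Helper3.comm_mem_center h.hc a b)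
    rwa [commutatorElement_def] at this
  · intro c hc
    exact h.all c (Subgroup.mem_center_iff.2 hc)
  · by_contra hcon
    push Not at hcon
    have hle : Nat.card E ≤ Nat.card (Subgroup.center E) := by
      have : (Subgroup.center E) = ⊤ := by
        rw [eq_top_iff]
        intro r _
        by_cases hr : r = 1
        · rw [hr]; exact one_mem _
        · rw [hcon r hr]; exact h.zc
      rw [this, Subgroup.card_top]
    rw [h.hZ, hk] at hle
    have : 2 ^ 2 ≤ 2 ^ k := Nat.pow_le_pow_right (by norm_num) hk2
    omega

/-- number of elements of order four -/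
theorem ES2.card_sq_z {E : Type*} [Group E] [Finite E] {z : E} (h : ES2 E z) :
    Nat.card {e : E // e ^ 2 * z = 1} + NN E = Nat.card E := by
  classical
  have h1 : Nat.card {e : E // e ^ 2 * z = 1} = Nat.card {q : E // ¬ q ^ 2 = 1} := by
    apply Nat.card_congr
    refine Equiv.subtypeEquivRight ?_
    intro q
    constructor
    · intro h2 h3
      rw [h3, one_mul] at h2
      exact h.z1 h2
    · intro h2
      rw [(h.sq_ne_one_iff _).1 h2, ← pow_two, h.zz]
  rw [h1, NN]
  have := Fintype.ofFinite E
  rw [Nat.card_eq_fintype_card, Nat.card_eq_fintype_card, Nat.card_eq_fintype_card,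
    Fintype.card_subtype_compl]
  have := Fintype.card_subtype_le (fun q : E => q ^ 2 = 1)
  omega

/-- underlying type of the central product with a dihedral group of order eight -/
@[ext] structure DExt (E : Type) where
  a : Bool
  b : Bool
  e : E

namespace DExt

variable {E : Type} [Group E]

def zet (z : E) (c : Bool) : E := if c then z else 1

theorem zet_comm {z : E} (hzc : ∀ g : E, g * z = z * g) (c : Bool) (g : E) :
    g * zet z c = zet z c * g := by
  cases c <;> simp [zet, hzc]

theorem zet_mul {z : E} (hzz : z * z = 1) (c d : Bool) :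
    zet z c * zet z d = zet z (xor c d) := by
  cases c <;> cases d <;> simp [zet, hzz]

def mul' (z : E) (x y : DExt E) : DExt E :=
  ⟨xor x.a y.a, xor x.b y.b, x.e * y.e * zet z (x.b && y.a)⟩

def inv' (z : E) (x : DExt E) : DExt E := ⟨x.a, x.b, x.e⁻¹ * zet z (x.b && x.a)⟩

theorem mul'_assoc {z : E} (hzc : ∀ g : E, g * z = z * g) (hzz : z * z = 1) (x y u : DExt E) :
    mul' z (mul' z x y) u = mul' z x (mul' z y u) := by
  ext
  · simp [mul']
  · simp [mul']
  · show x.e * y.e * zet z (x.b && y.a) * u.e * zet z ((xor x.b y.b) && u.a)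
      = x.e * (y.e * u.e * zet z (y.b && u.a)) * zet z (x.b && (xor y.a u.a))
    have e1 : x.e * y.e * zet z (x.b && y.a) * u.e * zet z ((xor x.b y.b) && u.a)
        = x.e * y.e * u.e * (zet z (x.b && y.a) * zet z ((xor x.b y.b) && u.a)) := by
      rw [mul_assoc (x.e * y.e), ← zet_comm hzc]
      simp only [mul_assoc]
    have e2 : x.e * (y.e * u.e * zet z (y.b && u.a)) * zet z (x.b && (xor y.a u.a))
        = x.e * y.e * u.e * (zet z (y.b && u.a) * zet z (x.b && (xor y.a u.a))) := by
      simp only [mul_assoc]
    rw [e1, e2, zet_mul hzz, zet_mul hzz]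
    congr 2
    cases x.b <;> cases y.a <;> cases y.b <;> cases u.a <;> rfl

/-- the group structure -/
@[reducible] def group (z : E) (hzc : ∀ g : E, g * z = z * g) (hzz : z * z = 1) :
    Group (DExt E) where
  mul := mul' z
  one := ⟨false, false, 1⟩
  inv := inv' z
  mul_assoc := mul'_assoc hzc hzz
  one_mul x := by
    show mul' z ⟨false, false, 1⟩ x = x
    ext <;> simp [mul', zet]
  mul_one x := by
    show mul' z x ⟨false, false, 1⟩ = x
    ext <;> simp [mul', zet]
  inv_mul_cancel x := by
    show mul' z (inv' z x) x = ⟨false, false, 1⟩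
    ext
    · simp [mul', inv']
    · simp [mul', inv']
    · show x.e⁻¹ * zet z (x.b && x.a) * x.e * zet z (x.b && x.a) = 1
      rw [mul_assoc x.e⁻¹, ← zet_comm hzc, mul_assoc, mul_assoc, zet_mul hzz]
      simp [zet]

def toProd : DExt E ≃ (Bool × Bool) × E where
  toFun x := ((x.a, x.b), x.e)
  invFun w := ⟨w.1.1, w.1.2, w.2⟩
  left_inv _ := rfl
  right_inv _ := rfl

end DExt

/-- the doubling step: central product with a dihedral group of order eight -/
theorem ES2.exists_ext (E : Type) [Group E] [Finite E] (z : E) (h : ES2 E z) :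
    ∃ (D : Type) (_ : Group D) (_ : Finite D) (w : D), ES2 D w ∧ Nat.card D = 4 * Nat.card E ∧
      NN D = 2 * NN E + Nat.card E := by
  have hzc : ∀ g : E, g * z = z * g := h.comm_z
  have hzz : z * z = 1 := by rw [← pow_two]; exact h.zz
  let _ : Group (DExt E) := DExt.group z hzc hzz
  have hmul : ∀ x y : DExt E, x * y = ⟨xor x.a y.a, xor x.b y.b,
    x.e * y.e * DExt.zet z (x.b && y.a)⟩ := fun _ _ => rfl
  have hone : (1 : DExt E) = ⟨false, false, 1⟩ := rfl
  have hfin : Finite (DExt E) := Finite.of_equiv _ DExt.toProd.symm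
  refine ⟨DExt E, inferInstance, hfin, ⟨false, false, z⟩, ?_, ?_, ?_⟩
  · apply ES2.of_elementwise
    · intro h1
      rw [hone] at h1
      exact h.z1 (congrArg DExt.e h1)
    · rw [hmul, hone]
      ext <;> simp [DExt.zet, hzz]
    · intro x y
      have key : ∀ c d : Bool, x.e * y.e * DExt.zet z c = y.e * x.e * DExt.zet z d ∨
          x.e * y.e * DExt.zet z c = y.e * x.e * DExt.zet z d * z := by
        intro c d
        rcases h.mul_cases x.e y.e with h1 | h1 <;> rw [h1] <;> cases c <;> cases d <;>
          simp [DExt.zet, mul_assoc, hzz]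
      rcases key (x.b && y.a) (y.b && x.a) with h1 | h1
      · left
        rw [hmul, hmul]
        ext
        · simp [Bool.xor_comm]
        · simp [Bool.xor_comm]
        · exact h1
      · right
        rw [hmul, hmul, hmul]
        ext
        · simp [Bool.xor_comm]
        · simp [Bool.xor_comm]
        · simpa [DExt.zet] using h1
    · intro x
      rw [hmul, hmul]
      ext <;> simp [DExt.zet, hzc]
    · intro c hc
      have h1 := congrArg DExt.e (hc ⟨true, false, 1⟩)
      have h2 := congrArg DExt.e (hc ⟨false, true, 1⟩)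
      rw [hmul, hmul] at h1 h2
      have hb : c.b = false := by
        by_contra hb
        rw [Bool.not_eq_false] at hb
        simp [DExt.zet, hb] at h1
        exact h.z1 h1
      have ha : c.a = false := by
        by_contra ha
        rw [Bool.not_eq_false] at ha
        simp [DExt.zet, ha] at h2
        exact h.z1 h2
      have h3 : c.e ∈ Subgroup.center E := by
        rw [Subgroup.mem_center_iff]
        intro g
        have h4 := congrArg DExt.e (hc ⟨false, false, g⟩)
        rw [hmul, hmul] at h4
        simpa [DExt.zet] using h4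
      rcases h.all _ h3 with h4 | h4
      · left
        rw [hone]
        ext
        · exact ha
        · exact hb
        · exact h4
      · right
        ext
        · exact ha
        · exact hb
        · exact h4
  · rw [Nat.card_congr DExt.toProd, Nat.card_prod, Nat.card_prod]
    simp
  · have h1 : NN (DExt E) = Nat.card {w : (Bool × Bool) × E //
        w.2 ^ 2 * DExt.zet z (w.1.2 && w.1.1) = 1} := by
      apply Nat.card_congr
      refine Equiv.subtypeEquiv DExt.toProd ?_
      intro x
      rw [pow_two, hmul, hone]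
      constructor
      · intro h2
        have := congrArg DExt.e h2
        rw [pow_two]
        exact this
      · intro h2
        ext
        · simp
        · simp
        · rw [pow_two] at h2
          exact h2
    rw [h1, Nat.card_congr (Equiv.subtypeProdEquivSigmaSubtype
      (fun (r : Bool × Bool) (e : E) => e ^ 2 * DExt.zet z (r.2 && r.1) = 1)), Nat.card_sigma,
      Fintype.sum_prod_type, Fintype.sum_bool, Fintype.sum_bool, Fintype.sum_bool]
    have := h.card_sq_z
    simp only [DExt.zet, Bool.and_true, Bool.and_false, if_true,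
      Bool.false_eq_true, if_false, mul_one]
    unfold NN at *
    omega

/-- plus type exists -/
theorem ES2.exists_plus (n : ℕ) : ∃ (E : Type) (_ : Group E) (_ : Finite E) (z : E),
    ES2 E z ∧ Nat.card E = 2 ^ (2 * n + 1) ∧ NN E = 2 ^ (2 * n) + 2 ^ n := by
  induction n with
  | zero =>
    refine ⟨Multiplicative (ZMod 2), inferInstance, inferInstance, Multiplicative.ofAdd 1, ?_, ?_, ?_⟩
    · apply ES2.of_elementwise
      · decide
      · decide
      · intro a b; exact Or.inl (mul_comm a b)
      · intro a; exact mul_comm _ _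
      · intro c _
        revert c
        decide
    · simp
    · unfold NN
      rw [Nat.card_eq_fintype_card, Fintype.card_subtype]
      decide
  | succ n ih =>
    obtain ⟨E, _, _, z, h, hc, hN⟩ := ih
    obtain ⟨D, i1, i2, w, hw, hc', hN'⟩ := ES2.exists_ext E z h
    refine ⟨D, i1, i2, w, hw, ?_, ?_⟩
    · rw [hc', hc]; ring
    · rw [hN', hc, hN]; ring

/-- minus type exists -/
theorem ES2.exists_minus (n : ℕ) : ∃ (E : Type) (_ : Group E) (_ : Finite E) (z : E),
    ES2 E z ∧ Nat.card E = 2 ^ (2 * (n + 1) + 1) ∧ NN E + 2 ^ (n + 1) = 2 ^ (2 * (n + 1)) := by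
  induction n with
  | zero =>
    refine ⟨QuaternionGroup 2, inferInstance, inferInstance, QuaternionGroup.a 2, ?_, ?_, ?_⟩
    · apply ES2.of_elementwise
      · decide
      · decide
      · decide
      · decide
      · intro c hc
        revert c
        decide
    · rw [Nat.card_eq_fintype_card, QuaternionGroup.card]; norm_num
    · unfold NN
      rw [Nat.card_eq_fintype_card, Fintype.card_subtype]
      decide
  | succ n ih =>
    obtain ⟨E, _, _, z, h, hc, hN⟩ := ih
    obtain ⟨D, i1, i2, w, hw, hc', hN'⟩ := ES2.exists_ext E z h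
    refine ⟨D, i1, i2, w, hw, ?_, ?_⟩
    · rw [hc', hc]; ring
    · rw [hN', hc]
      have e1 : 2 ^ (2 * (n + 1 + 1)) = 4 * 2 ^ (2 * (n + 1)) := by ring
      have e2 : 2 ^ (2 * (n + 1) + 1) = 2 * 2 ^ (2 * (n + 1)) := by ring
      have e3 : 2 ^ (n + 1 + 1) = 2 * 2 ^ (n + 1) := by ring
      rw [e1, e2, e3]
      omega

end Cfsg.Agent.Lib.Helper92
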