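import Mathlib
import Cfsg.Agent.Lib.Helper92.Conj
import Cfsg.Agent.Lib.Helper37.TransferInv
import Cfsg.Agent.Lib.Helper38.SignTransfer

set_option autoImplicit false

namespace Cfsg.Agent.Lib.Helper92

open scoped Classical in
/-- the sign character of a subgroup of index two -/
noncomputable def signHom {H : Type*} [Group H] (U : Subgroup H) (hU : U.index = 2) : H →* ℤˣ :=
  MonoidHom.mk' (fun h => if h ∈ U then 1 else -1) (by
    intro a b
    have := Subgroup.mul_mem_iff_of_index_two hU (a := a) (b := b)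
    by_cases ha : a ∈ U <;> by_cases hb : b ∈ U <;> simp_all)

open scoped Classical in
theorem signHom_apply {H : Type*} [Group H] (U : Subgroup H) (hU : U.index = 2) (h : H) :
    signHom U hU h = if h ∈ U then 1 else -1 := rfl

variable {G : Type*} [Group G]

/-- cosets `gH` fixed by `u` on which `u` is read off outside `K` -/
def badSet (H K : Subgroup G) (u : G) : Set (G ⧸ H) :=
  {q | ∃ g : G, (g : G ⧸ H) = q ∧ g⁻¹ * u * g ∈ H ∧ g⁻¹ * u * g ∉ K}

theorem comm_mem_of_relIndex_two {H K : Subgroup G} (hKi : K.relIndex H = 2) {a b : G}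
    (ha : a ∈ H) (hb : b ∈ H) : a * b * a⁻¹ * b⁻¹ ∈ K := by
  have hKi' : (K.subgroupOf H).index = 2 := hKi
  have h1 : signHom (K.subgroupOf H) hKi' (⟨a, ha⟩ * ⟨b, hb⟩ * ⟨a, ha⟩⁻¹ * ⟨b, hb⟩⁻¹) = 1 := by
    rw [map_mul, map_mul, map_mul, map_inv, map_inv]
    generalize signHom (K.subgroupOf H) hKi' ⟨a, ha⟩ = x
    generalize signHom (K.subgroupOf H) hKi' ⟨b, hb⟩ = y
    rw [mul_comm x y, mul_assoc, mul_assoc, mul_inv_cancel_left, mul_inv_cancel]
  rw [signHom_apply] at h1
  by_contra hcon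
  rw [if_neg (by rw [Subgroup.mem_subgroupOf]; exact hcon)] at h1
  exact absurd h1 (by decide)

theorem conj_mem_iff_of_relIndex_two {H K : Subgroup G} (hKi : K.relIndex H = 2)
    {h x : G} (hh : h ∈ H) (hx : x ∈ H) : h⁻¹ * x * h ∈ K ↔ x ∈ K := by
  have h1 := comm_mem_of_relIndex_two hKi (H.inv_mem hh) hx
  rw [inv_inv] at h1
  constructor
  · intro h2
    have h3 := K.mul_mem (K.inv_mem h1) h2
    have e : (h⁻¹ * x * h * x⁻¹)⁻¹ * (h⁻¹ * x * h) = x := by group
    rwa [e] at h3
  · intro h2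
    have h3 := K.mul_mem h1 h2
    have e : h⁻¹ * x * h * x⁻¹ * x = h⁻¹ * x * h := by group
    rwa [e] at h3

theorem mem_badSet_iff {H K : Subgroup G} (hKi : K.relIndex H = 2) {u g : G} :
    (g : G ⧸ H) ∈ badSet H K u ↔ g⁻¹ * u * g ∈ H ∧ g⁻¹ * u * g ∉ K := by
  constructor
  · rintro ⟨g', hg', h1, h2⟩
    have hm : g'⁻¹ * g ∈ H := QuotientGroup.eq.1 hg'
    have e : g⁻¹ * u * g = (g'⁻¹ * g)⁻¹ * (g'⁻¹ * u * g') * (g'⁻¹ * g) := by group
    rw [e]
    refine ⟨H.mul_mem (H.mul_mem (H.inv_mem hm) h1) hm, ?_⟩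
    rw [conj_mem_iff_of_relIndex_two hKi hm h1]
    exact h2
  · intro h
    exact ⟨g, rfl, h⟩

/-- if `O²(G) = G` the bad set of an involution has even size -/
theorem even_card_badSet [Finite G] (hres : Cfsg.pResidual 2 G = ⊤) {H K : Subgroup G}
    (hKi : K.relIndex H = 2) {u : G} (hu : u * u = 1) :
    Even (Nat.card (badSet H K u)) := by
  classical
  have := Fintype.ofFinite (G ⧸ H)
  have hKi' : (K.subgroupOf H).index = 2 := hKi
  let ϕ : H →* ℤˣ := signHom (K.subgroupOf H) hKi'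
  let ψ : G → ℤˣ := fun g => if g ∈ K then 1 else -1
  have hψ : ∀ h : H, ψ h = ϕ h := by
    intro h
    show (if (h : G) ∈ K then (1 : ℤˣ) else -1) = signHom (K.subgroupOf H) hKi' h
    rw [signHom_apply]
    simp only [Subgroup.mem_subgroupOf]
  have h1 := Cfsg.Agent.Lib.Helper37.transfer_involution H ϕ ψ hψ u hu
  have h2 : MonoidHom.transfer ϕ u = 1 := by
    have := Cfsg.Agent.Lib.Helper38.pResidual_le_ker (MonoidHom.transfer ϕ)
    rw [hres] at this
    exact this (Subgroup.mem_top u)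
  rw [h2] at h1
  have h3 : ∏ q ∈ Finset.univ.filter (fun q : G ⧸ H => u • q = q), ψ (q.out⁻¹ * u * q.out) =
      (-1) ^ ((Finset.univ.filter (fun q : G ⧸ H => u • q = q)).filter
        (fun q => ¬ q.out⁻¹ * u * q.out ∈ K)).card := by
    show ∏ q ∈ Finset.univ.filter (fun q : G ⧸ H => u • q = q),
      (if q.out⁻¹ * u * q.out ∈ K then (1 : ℤˣ) else -1) = _
    rw [Finset.prod_ite, Finset.prod_const_one, one_mul, Finset.prod_const]
  rw [h3] at h1
  have h4 : Even ((Finset.univ.filter (fun q : G ⧸ H => u • q = q)).filter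
        (fun q => ¬ q.out⁻¹ * u * q.out ∈ K)).card :=
    (neg_one_pow_eq_one_iff_even (by decide)).1 h1.symm
  have h5 : Nat.card (badSet H K u) = ((Finset.univ.filter (fun q : G ⧸ H => u • q = q)).filter
        (fun q => ¬ q.out⁻¹ * u * q.out ∈ K)).card := by
    rw [← Set.ncard_coe_finset, Nat.card_coe_set_eq]
    congr 2
    ext q
    simp only [Finset.coe_filter, Finset.mem_filter, Finset.mem_univ, true_and, Set.mem_ofPred_eq]
    have hq : ((q.out : G) : G ⧸ H) = q := QuotientGroup.out_eq' q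
    conv_lhs => rw [← hq]
    conv_rhs => rw [← hq]
    rw [mem_badSet_iff hKi, smul_coset_eq_iff, hq]
  rw [h5]
  exact h4

/-- a 2-group centralizing `u` with a single fixed point on the bad set forces odd size -/
theorem odd_card_badSet [Finite G] {H K : Subgroup G} {u : G} (R : Subgroup G)
    (hR : IsPGroup 2 R) (hRu : ∀ r ∈ R, Commute r u) (q₀ : G ⧸ H) (hq₀ : q₀ ∈ badSet H K u)
    (hfix₀ : ∀ r ∈ R, r • q₀ = q₀)
    (huniq : ∀ q ∈ badSet H K u, (∀ r ∈ R, r • q = q) → q = q₀) :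
    Odd (Nat.card (badSet H K u)) := by
  have : Fact (Nat.Prime 2) := ⟨Nat.prime_two⟩
  let p : SubMulAction R (G ⧸ H) :=
    { carrier := badSet H K u
      smul_mem' := by
        rintro r _ ⟨g, rfl, h1, h2⟩
        refine ⟨(r : G) * g, rfl, ?_⟩
        have e : ((r : G) * g)⁻¹ * u * ((r : G) * g) = g⁻¹ * u * g := by
          have hc : (r : G)⁻¹ * u * r = u := by
            have := (hRu r r.2).eq
            calc (r : G)⁻¹ * u * r = (r : G)⁻¹ * (u * r) := by group
              _ = (r : G)⁻¹ * (r * u) := by rw [this]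
              _ = u := by group
          calc ((r : G) * g)⁻¹ * u * ((r : G) * g) = g⁻¹ * ((r : G)⁻¹ * u * r) * g := by group
            _ = g⁻¹ * u * g := by rw [hc]
        rw [e]
        exact ⟨h1, h2⟩ }
  have h1 := hR.card_modEq_card_fixedPoints (α := p)
  have h2 : MulAction.fixedPoints R p = {⟨q₀, hq₀⟩} := by
    ext ⟨q, hq⟩
    simp only [MulAction.mem_fixedPoints, Set.mem_singleton_iff, Subtype.mk.injEq]
    constructor
    · intro h
      apply huniq q hq
      intro r hr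
      exact congrArg Subtype.val (h ⟨r, hr⟩)
    · rintro rfl r
      exact Subtype.ext (hfix₀ r r.2)
  rw [h2] at h1
  have h3 : Nat.card ({⟨q₀, hq₀⟩} : Set p) = 1 := by simp
  rw [h3] at h1
  have h4 : Nat.card p = Nat.card (badSet H K u) := rfl
  rw [h4] at h1
  rw [Nat.odd_iff]
  exact h1

end Cfsg.Agent.Lib.Helper92
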