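import Mathlib
import Cfsg.Prelude.Def_Classical
import Cfsg.Agent.Lib.Helper92.MdlDef
import Cfsg.Agent.Lib.Helper48.QuadF2Count

/-! The two standard matrices. -/

set_option autoImplicit false
set_option linter.unusedSectionVars false

namespace Cfsg.Agent.Lib.Helper92.Mdl

open Matrix

/-- matrix of the plus type form -/
def Bplus (n : ℕ) : Matrix (Fin n ⊕ Fin n) (Fin n ⊕ Fin n) (ZMod 2) := fromBlocks 0 1 0 0

/-- matrix of the minus type form -/
def Bminus (m : ℕ) : Matrix ((Fin m ⊕ Fin m) ⊕ Fin 2) ((Fin m ⊕ Fin m) ⊕ Fin 2) (ZMod 2) :=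
  fromBlocks (fromBlocks 0 1 0 0) 0 0 !![1, 1; 0, 1]

theorem bet_Bplus (n : ℕ) (u w : Fin n ⊕ Fin n → ZMod 2) :
    bet (Bplus n) u w = ∑ i : Fin n, u (.inl i) * w (.inr i) := by
  unfold bet Bplus
  simp only [dotProduct, Fintype.sum_sum_type, mulVec, fromBlocks_apply₁₁, fromBlocks_apply₁₂,
    fromBlocks_apply₂₁, fromBlocks_apply₂₂, Matrix.zero_apply, zero_mul, Finset.sum_const_zero,
    mul_zero, add_zero, zero_add, Matrix.one_apply, ite_mul, one_mul, Finset.sum_ite_eq,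
    Finset.mem_univ, if_true]

theorem bet_Bminus (m : ℕ) (u w : (Fin m ⊕ Fin m) ⊕ Fin 2 → ZMod 2) :
    bet (Bminus m) u w = (∑ i : Fin m, u (.inl (.inl i)) * w (.inl (.inr i))) +
      (u (.inr 0) * w (.inr 0) + u (.inr 0) * w (.inr 1) + u (.inr 1) * w (.inr 1)) := by
  unfold bet Bminus
  simp only [dotProduct, Fintype.sum_sum_type, mulVec, fromBlocks_apply₁₁, fromBlocks_apply₁₂,
    fromBlocks_apply₂₁, fromBlocks_apply₂₂, Matrix.zero_apply, zero_mul, Finset.sum_const_zero,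
    mul_zero, add_zero, zero_add, Matrix.one_apply, ite_mul, one_mul, Finset.sum_ite_eq,
    Finset.mem_univ, if_true, Fin.sum_univ_two]
  simp
  ring

theorem qf_Bplus (n : ℕ) : qf (Bplus n) = Cfsg.quadFormPlus n (ZMod 2) := by
  funext u
  rw [qf, bet_Bplus]
  rfl

theorem qf_Bminus (m : ℕ) : qf (Bminus m) = Cfsg.quadFormMinus m (ZMod 2) 1 1 := by
  funext u
  rw [qf, bet_Bminus]
  unfold Cfsg.quadFormMinus
  ring

theorem nondeg_Bplus (n : ℕ) (u : Fin n ⊕ Fin n → ZMod 2)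
    (h : ∀ w, bet (Bplus n) u w + bet (Bplus n) w u = 0) : u = 0 := by
  funext j
  rcases j with j | j
  · have := h (Pi.single (Sum.inr j) 1)
    simpa [bet_Bplus, Pi.single_apply] using this
  · have := h (Pi.single (Sum.inl j) 1)
    simpa [bet_Bplus, Pi.single_apply] using this

theorem nondeg_Bminus (m : ℕ) (u : (Fin m ⊕ Fin m) ⊕ Fin 2 → ZMod 2)
    (h : ∀ w, bet (Bminus m) u w + bet (Bminus m) w u = 0) : u = 0 := by
  funext j
  rcases j with (j | j) | j
  · have := h (Pi.single (Sum.inl (Sum.inr j)) 1)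
    simpa [bet_Bminus, Pi.single_apply] using this
  · have := h (Pi.single (Sum.inl (Sum.inl j)) 1)
    simpa [bet_Bminus, Pi.single_apply] using this
  · have h0 := h (Pi.single (Sum.inr 0) 1)
    have h1 := h (Pi.single (Sum.inr 1) 1)
    simp [bet_Bminus, Pi.single_apply] at h0 h1
    have a0 := zmod2_add_self (u (Sum.inr 0))
    have a1 := zmod2_add_self (u (Sum.inr 1))
    fin_cases j
    · show u (Sum.inr 0) = 0
      linear_combination h1 - a1
    · show u (Sum.inr 1) = 0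
      linear_combination h0 - a0

open Cfsg.Agent.Lib.Helper48 in
theorem card_zeros_minus (m : ℕ) :
    Nat.card {u : (Fin m ⊕ Fin m) ⊕ Fin 2 → ZMod 2 // Cfsg.quadFormMinus m (ZMod 2) 1 1 u = 0}
      + 2 ^ m = 2 ^ (2 * m + 1) := by
  have h := two_mul_card_zeros (Cfsg.quadFormMinus m (ZMod 2) 1 1)
  have h1 : charSum (Cfsg.quadFormMinus m (ZMod 2) 1 1) = - 2 ^ (m + 1) := by
    rw [← charSum_comp (Cfsg.quadFormMinus m (ZMod 2) 1 1) (reidx m).toEquiv]
    have : (fun v => Cfsg.quadFormMinus m (ZMod 2) 1 1 ((reidx m).toEquiv v)) = qw (w1 m) := by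
      funext v
      exact quadFormMinus_reidx v
    rw [this, charSum_qw, quadFormPlus_w1, sgn2_one]
    ring
  have h2 : Fintype.card ((Fin m ⊕ Fin m) ⊕ Fin 2 → ZMod 2) = 2 ^ (2 * m + 2) := by
    rw [Fintype.card_fun, ZMod.card]
    simp only [Fintype.card_sum, Fintype.card_fin]
    congr 1
    ring
  rw [h1, h2] at h
  have h3 : (2 : ℤ) * ((Nat.card {u : (Fin m ⊕ Fin m) ⊕ Fin 2 → ZMod 2 //
      Cfsg.quadFormMinus m (ZMod 2) 1 1 u = 0} + 2 ^ m : ℕ) : ℤ) = 2 * ((2 ^ (2 * m + 1) : ℕ) : ℤ) := by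
    push_cast
    push_cast at h
    linear_combination h
  exact_mod_cast mul_left_cancel₀ (two_ne_zero) h3

end Cfsg.Agent.Lib.Helper92.Mdl
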