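import Mathlib
import Cfsg.Agent.Lib.Helper92.MdlDef
import Cfsg.Agent.Lib.Helper92.ES2Ext

/-! The model group is an extraspecial `2`-group. -/

set_option autoImplicit false
set_option linter.unusedSectionVars false

namespace Cfsg.Agent.Lib.Helper92.Mdl

open Matrix

variable {ι : Type} [Fintype ι] [DecidableEq ι] (B : Matrix ι ι (ZMod 2))

theorem zmod2_cases (a : ZMod 2) : a = 0 ∨ a = 1 := by revert a; decide

theorem es2 (hB : ∀ u : ι → ZMod 2, (∀ w, bet B u w + bet B w u = 0) → u = 0) :
    ES2 (Mdl B) (zc B) := by
  apply ES2.of_elementwise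
  · intro h
    have := congrArg Mdl.a h
    simp [zc] at this
  · ext1
    · simp [zc]
    · simp only [zc, mul_a, one_a, bet_zero_left]
      decide
  · intro a b
    rcases zmod2_cases (bet B a.v b.v + bet B b.v a.v) with h | h
    · left
      ext1
      · simp [add_comm]
      · simp only [mul_a]
        have h2 := zmod2_add_self (bet B b.v a.v)
        linear_combination h - h2
    · right
      ext1
      · simp [zc, add_comm]
      · simp only [mul_a, mul_v, zc, bet_zero_right]
        have h2 := zmod2_add_self (bet B b.v a.v)
        linear_combination h - h2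
  · intro a
    ext1
    · simp [zc]
    · simp only [mul_a, zc, bet_zero_right, bet_zero_left]
      ring
  · intro c hc
    have hv : c.v = 0 := by
      apply hB
      intro w
      have := congrArg Mdl.a (hc ⟨w, 0⟩)
      simp only [mul_a] at this
      have h2 := zmod2_add_self (bet B w c.v)
      linear_combination h2 - this
    rcases zmod2_cases c.a with h | h
    · left
      ext1
      · exact hv
      · exact h
    · right
      ext1
      · exact hv
      · exact h

theorem card_eq : Nat.card (Mdl B) = 2 * 2 ^ Fintype.card ι := by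
  rw [Nat.card_congr (toProd (B := B)), Nat.card_prod, Nat.card_eq_fintype_card,
    Nat.card_eq_fintype_card, Fintype.card_fun, ZMod.card, mul_comm]

theorem sq_eq (x : Mdl B) : x ^ 2 = ⟨0, qf B x.v⟩ := by
  rw [pow_two]
  ext1
  · simp [vec_add_self]
  · simp only [mul_a, qf]
    have := zmod2_add_self x.a
    linear_combination this

theorem NN_eq : NN (Mdl B) = 2 * Nat.card {u : ι → ZMod 2 // qf B u = 0} := by
  have e : {x : Mdl B // x ^ 2 = 1} ≃ {u : ι → ZMod 2 // qf B u = 0} × ZMod 2 :=
    { toFun := fun x => (⟨x.1.v, by
        have := congrArg Mdl.a x.2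
        rw [sq_eq] at this
        exact this⟩, x.1.a)
      invFun := fun p => ⟨⟨p.1.1, p.2⟩, by
        rw [sq_eq]
        ext1
        · rfl
        · exact p.1.2⟩
      left_inv := fun x => rfl
      right_inv := fun p => rfl }
  unfold NN
  rw [Nat.card_congr e, Nat.card_prod, mul_comm]
  congr 1
  rw [Nat.card_eq_fintype_card, ZMod.card]

end Cfsg.Agent.Lib.Helper92.Mdl
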