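import Mathlib
import Cfsg.Prelude.Def_Classical
import Cfsg.Agent.Lib.Helper92.MdlES

/-! The action of automorphisms of the model group on the vector part. -/

set_option autoImplicit false
set_option linter.unusedSectionVars false

namespace Cfsg.Agent.Lib.Helper92.Mdl

open Matrix

variable {ι : Type} [Fintype ι] [DecidableEq ι] (B : Matrix ι ι (ZMod 2))

theorem aut_zc (hB : ∀ u : ι → ZMod 2, (∀ w, bet B u w + bet B w u = 0) → u = 0)
    (φ : MulAut (Mdl B)) : φ (zc B) = zc B := by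
  have hes := es2 B hB
  have hc : φ (zc B) ∈ Subgroup.center (Mdl B) := by
    rw [Subgroup.mem_center_iff]
    intro g
    obtain ⟨g', rfl⟩ := φ.surjective g
    rw [← map_mul, ← map_mul, hes.comm_z g']
  rcases hes.all _ hc with h | h
  · exfalso
    apply hes.z1
    apply φ.injective
    rw [h, map_one]
  · exact h

theorem aut_v (hB : ∀ u : ι → ZMod 2, (∀ w, bet B u w + bet B w u = 0) → u = 0)
    (φ : MulAut (Mdl B)) (x : Mdl B) : (φ x).v = (φ ⟨x.v, 0⟩).v := by
  rcases zmod2_cases x.a with h | h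
  · have : x = ⟨x.v, 0⟩ := by
      ext1
      · rfl
      · exact h
    rw [← this]
  · have : x = ⟨x.v, 0⟩ * zc B := by
      ext1
      · simp [zc]
      · simp [zc, h]
    conv_lhs => rw [this, map_mul, aut_zc B hB, mul_v]
    simp [zc]

theorem exists_mat (hB : ∀ u : ι → ZMod 2, (∀ w, bet B u w + bet B w u = 0) → u = 0)
    (φ : MulAut (Mdl B)) : ∃ M : Matrix ι ι (ZMod 2), ∀ x : Mdl B, M *ᵥ x.v = (φ x).v := by
  let g : (ι → ZMod 2) →+ (ι → ZMod 2) :=
    AddMonoidHom.mk' (fun u => (φ ⟨u, 0⟩).v) (fun u w => by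
      have := aut_v B hB φ (⟨u, 0⟩ * ⟨w, 0⟩)
      rw [map_mul, mul_v] at this
      exact this.symm)
  refine ⟨LinearMap.toMatrix' (g.toZModLinearMap 2), fun x => ?_⟩
  rw [LinearMap.toMatrix'_mulVec]
  exact (aut_v B hB φ x).symm

theorem exists_hom (hB : ∀ u : ι → ZMod 2, (∀ w, bet B u w + bet B w u = 0) → u = 0) :
    ∃ Ψ : MulAut (Mdl B) →* Cfsg.isometryGroup (ZMod 2) (qf B),
      ∀ (φ : MulAut (Mdl B)) (x : Mdl B),
        ((Ψ φ : Matrix.GeneralLinearGroup ι (ZMod 2)) : Matrix ι ι (ZMod 2)) *ᵥ x.v = (φ x).v := by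
  choose M hM using exists_mat B hB
  let g : MulAut (Mdl B) →* Matrix ι ι (ZMod 2) :=
    { toFun := M
      map_one' := by
        apply Matrix.ext_iff_mulVec.2
        intro u
        rw [hM 1 ⟨u, 0⟩, one_mulVec]
        rfl
      map_mul' := by
        intro φ ψ
        apply Matrix.ext_iff_mulVec.2
        intro u
        rw [hM (φ * ψ) ⟨u, 0⟩, ← mulVec_mulVec, hM ψ ⟨u, 0⟩, hM φ]
        rfl }
  have hg : ∀ φ, g φ = M φ := fun φ => rfl
  have hmem : ∀ φ, g.toHomUnits φ ∈ Cfsg.isometryGroup (ZMod 2) (qf B) := by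
    intro φ u _
    change qf B ((g.toHomUnits φ : Matrix ι ι (ZMod 2)) *ᵥ u) = qf B u
    rw [MonoidHom.coe_toHomUnits, hg, hM φ ⟨u, 0⟩]
    have h1 : φ ((⟨u, 0⟩ : Mdl B) ^ 2) = (φ ⟨u, 0⟩) ^ 2 := map_pow φ _ 2
    rw [sq_eq, sq_eq] at h1
    rcases zmod2_cases (qf B u) with h | h
    · have h2 : (⟨0, qf B u⟩ : Mdl B) = 1 := by
        ext1
        · rfl
        · exact h
      rw [h2, map_one] at h1
      rw [h]
      exact (congrArg Mdl.a h1).symm
    · have h2 : (⟨0, qf B u⟩ : Mdl B) = zc B := by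
        ext1
        · rfl
        · exact h
      rw [h2, aut_zc B hB] at h1
      rw [h]
      exact (congrArg Mdl.a h1).symm
  refine ⟨g.toHomUnits.codRestrict _ hmem, fun φ x => ?_⟩
  change (g.toHomUnits φ : Matrix ι ι (ZMod 2)) *ᵥ x.v = _
  rw [MonoidHom.coe_toHomUnits, hg, hM]

end Cfsg.Agent.Lib.Helper92.Mdl
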