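import Mathlib
import Cfsg.Prelude.Def_KGroupFacts
import Cfsg.Agent.Lib.Helper92.MdlES
import Cfsg.Agent.Lib.Helper92.ES2Class
import Cfsg.Agent.Lib.Helper36.CentralAut

/-! Automorphisms of the model group acting trivially on the vector part are inner. -/

set_option autoImplicit false
set_option linter.unusedSectionVars false

namespace Cfsg.Agent.Lib.Helper92.Mdl

open Matrix
open scoped commutatorElement

variable {ι : Type} [Fintype ι] [DecidableEq ι] (B : Matrix ι ι (ZMod 2))

theorem eq_one_or_zc_of_v {x : Mdl B} (hx : x.v = 0) : x = 1 ∨ x = zc B := by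
  rcases zmod2_cases x.a with h | h
  · left
    ext1
    · exact hx
    · exact h
  · right
    ext1
    · exact hx
    · exact h

theorem inner_of_v (hB : ∀ u : ι → ZMod 2, (∀ w, bet B u w + bet B w u = 0) → u = 0)
    (φ : MulAut (Mdl B)) (h : ∀ x : Mdl B, (φ x).v = x.v) : φ ∈ Cfsg.Inn (Mdl B) := by
  have hes := es2 B hB
  have : Fact (Nat.Prime 2) := ⟨Nat.prime_two⟩
  by_cases hab : ∀ x y : Mdl B, Commute x y
  · refine ⟨1, ?_⟩
    ext1 x
    rw [map_one]
    change x = φ x
    have hxc : ∀ x : Mdl B, x = 1 ∨ x = zc B := fun x =>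
      hes.all x (Subgroup.mem_center_iff.2 fun g => (hab g x).eq)
    rcases hxc x with rfl | rfl
    · rw [map_one]
    · rcases hxc (φ (zc B)) with h1 | h1
      · exfalso
        apply hes.z1
        apply φ.injective
        rw [h1, map_one]
      · exact h1.symm
  · push Not at hab
    obtain ⟨x, y, hxy⟩ := hab
    have hz : ⁅x, y⁆ = zc B := hes.comm_eq hxy
    have hcomm : commutator (Mdl B) = Subgroup.center (Mdl B) := by
      apply le_antisymm hes.hc
      intro c hc
      rcases hes.all c hc with rfl | rfl
      · exact one_mem _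
      · rw [← hz]
        exact Subgroup.commutator_mem_commutator (Subgroup.mem_top x) (Subgroup.mem_top y)
    obtain ⟨g, hg⟩ := Cfsg.Agent.Lib.Helper36.exists_conj_of_central_endo hcomm hes.hZ
      φ.toMonoidHom (fun x => by
        have hv : (φ x * x⁻¹).v = 0 := by
          rw [mul_v, inv_v, h, vec_add_self]
        rcases eq_one_or_zc_of_v B hv with h1 | h1
        · change φ x * x⁻¹ ∈ _
          rw [h1]; exact one_mem _
        · change φ x * x⁻¹ ∈ _
          rw [h1]; exact hes.zc)
    refine ⟨g, ?_⟩
    ext1 x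
    rw [MulAut.conj_apply]
    exact (hg x).symm

end Cfsg.Agent.Lib.Helper92.Mdl
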