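import Mathlib
import Cfsg.Prelude.Def_Classical
import Cfsg.Prelude.Def_KGroupFacts
import Cfsg.Agent.Lib.Helper92.MdlDef
import Cfsg.Agent.Lib.Helper92.MdlES
import Cfsg.Agent.Lib.Helper92.MdlCnt
import Cfsg.Agent.Lib.Helper92.MdlKer
import Cfsg.Agent.Lib.Helper92.MdlHom
import Cfsg.Agent.Lib.Helper62.MdlSURJ
import Cfsg.Agent.Lib.Helper92.ES2Ext
import Cfsg.Agent.Lib.Helper92.ES2Rank2
import Cfsg.Agent.Lib.Helper48.QuadF2Count

/-! Outer automorphism groups of extraspecial `2`-groups. -/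

set_option autoImplicit false
set_option linter.unusedSectionVars false

namespace Cfsg.Agent.Lib.Helper92.Mdl

open Matrix

variable {ι : Type} [Fintype ι] [DecidableEq ι] (B : Matrix ι ι (ZMod 2))


theorem mat_ext {M N : Matrix ι ι (ZMod 2)} (h : ∀ u, M *ᵥ u = N *ᵥ u) : M = N :=
  Matrix.ext_iff_mulVec.2 h

/-- the outer automorphism group of the model group -/
theorem out_equiv (hB : ∀ u : ι → ZMod 2, (∀ w, bet B u w + bet B w u = 0) → u = 0) :
    Nonempty (Cfsg.Out (Mdl B) ≃* Cfsg.isometryGroup (ZMod 2) (qf B)) := by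
  obtain ⟨Ψ, hΨ⟩ := exists_hom B hB
  have hsurj : Function.Surjective Ψ := by
    intro g
    obtain ⟨φ, hφ⟩ := exists_aut B g.1 (fun u => g.2 u u)
    refine ⟨φ, ?_⟩
    apply Subtype.ext
    apply Units.ext
    apply mat_ext
    intro u
    have h1 := hΨ φ ⟨u, 0⟩
    rw [hφ] at h1
    exact h1
  have hker : Cfsg.Inn (Mdl B) = Ψ.ker := by
    ext φ
    rw [MonoidHom.mem_ker]
    constructor
    · rintro ⟨g, rfl⟩
      apply Subtype.ext
      apply Units.ext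
      apply mat_ext
      intro u
      have h1 := hΨ (MulAut.conj g) ⟨u, 0⟩
      rw [h1]
      simp only [MulAut.conj_apply, mul_v, inv_v]
      have := vec_add_self g.v
      simp only [OneMemClass.coe_one, Units.val_one, one_mulVec]
      rw [add_comm g.v u, add_assoc, this, add_zero]
    · intro h
      apply inner_of_v B hB
      intro x
      rw [← hΨ φ x, h]
      simp
  exact ⟨(QuotientGroup.quotientMulEquivOfEq hker).trans
    (QuotientGroup.quotientKerEquivOfSurjective Ψ hsurj)⟩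

end Cfsg.Agent.Lib.Helper92.Mdl

namespace Cfsg.Agent.Lib.Helper92

/-- the outer automorphism group is an isomorphism invariant -/
theorem out_congr {G G' : Type*} [Group G] [Group G'] (e : G ≃* G') :
    Nonempty (Cfsg.Out G ≃* Cfsg.Out G') := by
  have h : (Cfsg.Inn G).map (MulAut.congr e).toMonoidHom = Cfsg.Inn G' := by
    ext φ
    constructor
    · rintro ⟨_, ⟨g, rfl⟩, rfl⟩
      refine ⟨e g, ?_⟩
      ext x
      simp [MulAut.congr, MulAut.conj_apply]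
    · rintro ⟨g, rfl⟩
      refine ⟨MulAut.conj (e.symm g), ⟨e.symm g, rfl⟩, ?_⟩
      ext x
      simp [MulAut.congr, MulAut.conj_apply]
  exact ⟨QuotientGroup.congr (Cfsg.Inn G) (Cfsg.Inn G') (MulAut.congr e) h⟩

/-- plus type -/
theorem out_plus {E : Type*} [Group E] [Finite E] {z : E} (h : ES2 E z) (n : ℕ) (hn : 1 ≤ n)
    (hcard : Nat.card E = 2 ^ (2 * n + 1)) (hNN : NN E = 2 ^ (2 * n) + 2 ^ n) :
    Nonempty (Cfsg.Out E ≃* Cfsg.isometryGroup (ZMod 2) (Cfsg.quadFormPlus n (ZMod 2))) := by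
  obtain ⟨k, rfl⟩ : ∃ k, n = k + 1 := ⟨n - 1, by omega⟩
  have h2 := Mdl.es2 (Mdl.Bplus (k + 1)) (Mdl.nondeg_Bplus (k + 1))
  have hc2 : Nat.card (Mdl (Mdl.Bplus (k + 1))) = 2 ^ (2 * (k + 1) + 1) := by
    rw [Mdl.card_eq]
    simp only [Fintype.card_sum, Fintype.card_fin]
    rw [← pow_succ']
    congr 1
    ring
  have hN2 : NN (Mdl (Mdl.Bplus (k + 1))) = 2 ^ (2 * (k + 1)) + 2 ^ (k + 1) := by
    rw [Mdl.NN_eq, Mdl.qf_Bplus, Cfsg.Agent.Lib.Helper48.card_plus_zeros]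
    have e1 : 2 * (k + 1) - 1 = 2 * k + 1 := by omega
    have e2 : k + 1 - 1 = k := by omega
    rw [e1, e2]
    ring
  obtain ⟨F, -⟩ := ES2.iso_aux _ E _ z _ h h2 rfl (hc2.trans hcard.symm) (hNN.trans hN2.symm)
  obtain ⟨e1⟩ := out_congr F
  obtain ⟨e2⟩ := Mdl.out_equiv (Mdl.Bplus (k + 1)) (Mdl.nondeg_Bplus (k + 1))
  rw [Mdl.qf_Bplus] at e2
  exact ⟨e1.trans e2⟩

/-- minus type -/
theorem out_minus {E : Type*} [Group E] [Finite E] {z : E} (h : ES2 E z) (n : ℕ) (hn : 1 ≤ n)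
    (hcard : Nat.card E = 2 ^ (2 * n + 1)) (hNN : NN E + 2 ^ n = 2 ^ (2 * n)) :
    Nonempty (Cfsg.Out E ≃*
      Cfsg.isometryGroup (ZMod 2) (Cfsg.quadFormMinus (n - 1) (ZMod 2) 1 1)) := by
  obtain ⟨k, rfl⟩ : ∃ k, n = k + 1 := ⟨n - 1, by omega⟩
  have ek : k + 1 - 1 = k := by omega
  rw [ek]
  have h2 := Mdl.es2 (Mdl.Bminus k) (Mdl.nondeg_Bminus k)
  have hc2 : Nat.card (Mdl (Mdl.Bminus k)) = 2 ^ (2 * (k + 1) + 1) := by
    rw [Mdl.card_eq]
    simp only [Fintype.card_sum, Fintype.card_fin]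
    rw [← pow_succ']
    congr 1
    ring
  have hN2 : NN (Mdl (Mdl.Bminus k)) + 2 ^ (k + 1) = 2 ^ (2 * (k + 1)) := by
    rw [Mdl.NN_eq, Mdl.qf_Bminus]
    have := Mdl.card_zeros_minus k
    have e3 : 2 ^ (2 * (k + 1)) = 2 * 2 ^ (2 * k + 1) := by ring
    rw [e3, ← this]
    ring
  obtain ⟨F, -⟩ := ES2.iso_aux _ E _ z _ h h2 rfl (hc2.trans hcard.symm) (by omega)
  obtain ⟨e1⟩ := out_congr F
  obtain ⟨e2⟩ := Mdl.out_equiv (Mdl.Bminus k) (Mdl.nondeg_Bminus k)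
  rw [Mdl.qf_Bminus] at e2
  exact ⟨e1.trans e2⟩

end Cfsg.Agent.Lib.Helper92
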