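import Mathlib
import Cfsg.Agent.Lib.Helper92.Singular

set_option autoImplicit false

namespace Cfsg.Agent.Lib.Helper92

universe u

variable {G : Type u} [Group G]

/-- Data of a singular subgroup `U`. -/
structure SingU (Q : G → Subgroup G) (U : Subgroup G) : Prop where
  sq : ∀ u ∈ U, u * u = 1
  es : ∀ u ∈ U, u ≠ 1 → ESData (Q u) u
  ex : ∀ u ∈ U, u ≠ 1 → Cfsg.IsExtraspecial 2 ↥(Q u)
  le : ∀ u ∈ U, u ≠ 1 → U ≤ Q u

theorem SingU.of {Q : G → Subgroup G} {z : G} (S : Sing Q z) (U : Subgroup G)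
    (hU2 : ∀ u ∈ U, u * u = 1) (hS : ∀ u ∈ U, u ≠ 1 → ∃ g : G, g * z * g⁻¹ = u)
    (hO : ∀ u ∈ U, ∀ v ∈ U, u ≠ 1 → v ≠ 1 → v ∈ Q u) : SingU Q U where
  sq := hU2
  es := by
    intro u hu hu1
    obtain ⟨g, rfl⟩ := hS u hu hu1
    exact S.es g
  ex := by
    intro u hu hu1
    obtain ⟨g, rfl⟩ := hS u hu hu1
    exact S.ex g
  le := by
    intro u hu hu1 v hv
    by_cases hv1 : v = 1
    · rw [hv1]; exact one_mem _
    · exact hO u hu v hv hu1 hv1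

variable {Q : G → Subgroup G} {U : Subgroup G}

theorem SingU.inv (h : SingU Q U) {u : G} (hu : u ∈ U) : u⁻¹ = u :=
  inv_eq_of_mul_eq_one_left (h.sq u hu)

theorem SingU.comm (h : SingU Q U) {u v : G} (hu : u ∈ U) (hv : v ∈ U) : u * v = v * u := by
  have h1 := h.sq _ (U.mul_mem hu hv)
  calc u * v = u * (u * v * (u * v)) * v := by rw [h1, mul_one]
    _ = (u * u) * (v * u) * (v * v) := by group
    _ = v * u := by rw [h.sq u hu, h.sq v hv, one_mul, mul_one]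

theorem SingU.conj_mem (h : SingU Q U) {u a v : G} (hu : u ∈ U) (hu1 : u ≠ 1) (ha : a ∈ Q u)
    (hv : v ∈ U) : a * v * a⁻¹ ∈ U := by
  rcases (h.es u hu hu1).conj_cases ha (h.le u hu hu1 hv) with h1 | h1
  · rw [h1]; exact hv
  · rw [h1]; exact U.mul_mem hu hv

theorem mem_QU {x : G} : x ∈ (⨅ u ∈ ((U : Set G) \ {1}), Q u) ↔ ∀ u ∈ U, u ≠ 1 → x ∈ Q u := by
  simp only [Subgroup.mem_iInf]
  constructor
  · intro h u hu hu1
    exact h u ⟨hu, hu1⟩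
  · intro h u hu
    exact h u hu.1 hu.2

theorem LU_eq_closure : (⨆ u ∈ ((U : Set G) \ {1}), Q u) =
    Subgroup.closure {g : G | ∃ u ∈ U, u ≠ 1 ∧ g ∈ Q u} := by
  apply le_antisymm
  · apply iSup₂_le
    intro u hu g hg
    exact Subgroup.subset_closure ⟨u, hu.1, hu.2, hg⟩
  · rw [Subgroup.closure_le]
    rintro g ⟨u, hu, hu1, hg⟩
    exact (le_iSup₂ (f := fun u (_ : u ∈ ((U : Set G) \ {1})) => Q u) u ⟨hu, hu1⟩) hg

theorem Q_le_LU {u : G} (hu : u ∈ U) (hu1 : u ≠ 1) : Q u ≤ ⨆ u ∈ ((U : Set G) \ {1}), Q u :=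
  le_iSup₂ (f := fun u (_ : u ∈ ((U : Set G) \ {1})) => Q u) u ⟨hu, hu1⟩

theorem SingU.LU_le_normalizer (h : SingU Q U) :
    (⨆ u ∈ ((U : Set G) \ {1}), Q u) ≤ Subgroup.normalizer (U : Set G) := by
  apply iSup₂_le
  intro u hu
  apply le_normalizer_of_conj_mem
  intro a ha v hv
  exact h.conj_mem hu.1 hu.2 ha hv

end Cfsg.Agent.Lib.Helper92
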